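import Cfsg.Agent.Lib.PW.Defs

set_option autoImplicit false
set_option linter.unusedSectionVars false

namespace H93.PW
open Equiv Equiv.Perm

variable {ι M : Type} [Fintype ι] [DecidableEq ι] [Fintype M] [DecidableEq M]

namespace DA

/-- Same orbit under the pointwise stabiliser of the hyperplane. -/
def R (G : Subgroup (Perm (ι → M))) (i : ι) (a : M) (x y : ι → M) : Prop :=
  ∃ g ∈ G, (∀ z : ι → M, z i = a → g z = z) ∧ g x = y

variable {G : Subgroup (Perm (ι → M))} {i : ι} {a : M}

theorem R.refl (x : ι → M) : R G i a x x := ⟨1, G.one_mem, fun _ _ => rfl, rfl⟩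

theorem R.symm {x y : ι → M} (h : R G i a x y) : R G i a y x := by
  obtain ⟨g, hg, hf, rfl⟩ := h
  refine ⟨g⁻¹, G.inv_mem hg, fun z hz => ?_, by simp⟩
  rw [Perm.inv_eq_iff_eq, hf z hz]

theorem R.trans {x y z : ι → M} (h : R G i a x y) (h' : R G i a y z) : R G i a x z := by
  obtain ⟨g, hg, hf, rfl⟩ := h
  obtain ⟨g', hg', hf', rfl⟩ := h'
  refine ⟨g' * g, G.mul_mem hg' hg, fun z hz => ?_, rfl⟩
  rw [Perm.mul_apply, hf z hz, hf' z hz]

theorem r1 (hG : Hyp G) {x y : ι → M} (hx : x i ≠ a) (hy : y i ≠ a)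
    (h : ∀ l, l ≠ i → x l = y l) : R G i a x y := by
  by_cases hxy : x i = y i
  · have : x = y := by
      funext l
      by_cases hl : l = i
      · rw [hl]; exact hxy
      · exact h l hl
    rw [this]; exact R.refl y
  obtain ⟨e, he1, he2, he3, -⟩ := avoid4 hG.m5 a (x i) (y i) a
  refine ⟨co i (c3 (x i) (y i) e), hG.c3_mem i hxy he2.symm, fun z hz => ?_, ?_⟩
  · rw [co_fix, hz]; exact c3_ne hx.symm hy.symm he1.symm
  · funext l
    by_cases hl : l = i
    · rw [hl, co_self, c3_a hxy he3.symm]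
    · rw [co_ne _ _ hl, h l hl]

theorem r2 {ω : Perm (ι → M)} (hω : ω ∈ G) (hs : ∀ z : ι → M, ω z i = a ↔ z i = a)
    {x y : ι → M} (h : R G i a x y) : R G i a (ω x) (ω y) := by
  obtain ⟨g, hg, hf, rfl⟩ := h
  refine ⟨ω * g * ω⁻¹, G.mul_mem (G.mul_mem hω hg) (G.inv_mem hω), fun z hz => ?_, by simp⟩
  have : (ω⁻¹ z) i = a := (hs _).1 (by simpa using hz)
  simp only [Perm.mul_apply]
  rw [hf _ this]; simp

theorem two_pts {p q p' q' : M} (h : p ≠ q) (h' : p' ≠ q') :
    ∃ ρ : Perm M, ρ p = p' ∧ ρ q = q' := by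
  refine ⟨swap (swap p p' q) q' * swap p p', ?_, by simp [Perm.mul_apply]⟩
  rw [Perm.mul_apply, swap_apply_left]
  refine swap_apply_of_ne_of_ne ?_ h'
  intro e
  have : swap p p' p = swap p p' q := by rw [swap_apply_left]; exact e
  exact h ((swap p p').injective this)

theorem r4 (hG : Hyp G) {y : ι → M} {j : ι} {v₀ : M} (hy : y i ≠ a) (hj : j ≠ i)
    (hv₀ : y j ≠ v₀) (hR : R G i a y (Function.update y j v₀))
    {z : ι → M} {j' : ι} {v : M} (hz : z i ≠ a) (hj' : j' ≠ i) (hv : z j' ≠ v) :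
    R G i a z (Function.update z j' v) := by
  obtain ⟨ρ, hρ1, hρ2⟩ := two_pts hv₀ hv
  let τ : ι → Perm M := fun l =>
    if l = i then 1 else if l = j' then ρ else swap (y (swap j j' l)) (z l)
  have hsi : swap j j' i = i := swap_apply_of_ne_of_ne hj.symm hj'.symm
  have hwa : ∀ f l, mk (swap j j') τ f l = τ l (f (swap j j' l)) := fun f l => by
    rw [mk_apply, Equiv.symm_swap]
  have hwi : ∀ f, mk (swap j j') τ f i = f i := by
    intro f; rw [hwa, hsi]; simp [τ]
  have hsne : ∀ l, l ≠ i → swap j j' l ≠ i := by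
    intro l hl e
    exact hl ((swap j j').injective (e.trans hsi.symm))
  obtain ⟨b, hb, -, -, -⟩ := avoid4 hG.m5 a a a a
  obtain ⟨c, hc, hcb, -, -⟩ := avoid4 hG.m5 a b a a
  have hω : ∃ ω ∈ G, (∀ f : ι → M, ω f i = a ↔ f i = a) ∧
      ∀ f l, l ≠ i → ω f l = τ l (f (swap j j' l)) := by
    rcases hG.adj _ (mk_mem_W (swap j j') τ) i b c hcb.symm with h | h
    · exact ⟨_, h, fun f => by rw [hwi], fun f l _ => hwa f l⟩
    · refine ⟨_, h, fun f => ?_, fun f l hl => ?_⟩
      · rw [Perm.mul_apply, hwi, co_self]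
        have : swap b c a = a := swap_apply_of_ne_of_ne hb.symm hc.symm
        constructor
        · intro e; exact (swap b c).injective (e.trans this.symm)
        · intro e; rw [e, this]
      · rw [Perm.mul_apply, hwa, co_ne _ _ (hsne l hl)]
  obtain ⟨ω, hωG, hω1, hω2⟩ := hω
  have e1 : ∀ l, l ≠ i → l ≠ j' → τ l (y (swap j j' l)) = z l := by
    intro l hl hl'
    simp [τ, hl, hl']
  have e2 : τ j' = ρ := by simp [τ, hj']
  have hA : R G i a z (ω y) := by
    refine r1 hG hz (fun e => hy ((hω1 y).1 e)) fun l hl => ?_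
    rw [hω2 y l hl]
    by_cases hl' : l = j'
    · rw [hl', e2, swap_apply_right, hρ1]
    · rw [e1 l hl hl']
  have hB : R G i a (ω (Function.update y j v₀)) (Function.update z j' v) := by
    refine r1 hG (fun e => hy ?_) (by rw [Function.update_of_ne hj'.symm]; exact hz)
      fun l hl => ?_
    · have := (hω1 _).1 e
      rwa [Function.update_of_ne hj.symm] at this
    · rw [hω2 _ l hl]
      by_cases hl' : l = j'
      · rw [hl', e2, swap_apply_right, Function.update_self, Function.update_self, hρ2]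
      · have : swap j j' l ≠ j := by
          intro e
          exact hl' ((swap j j').injective (e.trans (swap_apply_right j j').symm))
        rw [Function.update_of_ne this, Function.update_of_ne hl', e1 l hl hl']
  exact (hA.trans (r2 hωG hω1 hR)).trans hB

theorem r5 (hG : Hyp G)
    (h4 : ∀ (z : ι → M) (j' : ι) (v : M), z i ≠ a → j' ≠ i → z j' ≠ v →
      R G i a z (Function.update z j' v)) (D : Finset ι) :
    ∀ z z' : ι → M, z i ≠ a → z' i ≠ a → (∀ l, l ∉ D → l ≠ i → z l = z' l) → R G i a z z' := by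
  induction D using Finset.induction_on with
  | empty => intro z z' hz hz' h; exact r1 hG hz hz' fun l hl => h l (by simp) hl
  | insert j D _ ih =>
    intro z z' hz hz' h
    by_cases hj : j = i ∨ z j = z' j
    · refine ih z z' hz hz' fun l hl hli => ?_
      by_cases hlj : l = j
      · rcases hj with hj | hj
        · exact absurd (hlj.trans hj) hli
        · rw [hlj]; exact hj
      · exact h l (by simp [hlj, hl]) hli
    · push Not at hj
      refine (h4 z j (z' j) hz hj.1 hj.2).trans (ih _ z' ?_ hz' fun l hl hli => ?_)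
      · rw [Function.update_of_ne hj.1.symm]; exact hz
      · by_cases hlj : l = j
        · rw [hlj]; simp
        · rw [Function.update_of_ne hlj]; exact h l (by simp [hlj, hl]) hli

end DA

theorem dich {G : Subgroup (Perm (ι → M))} (hG : Hyp G) (i : ι) (a : M) :
    J G (hp i a) ∨ Lines G i a := by
  by_cases hL : Lines G i a
  · exact Or.inr hL
  left
  unfold Lines at hL
  push Not at hL
  obtain ⟨g, hg, hfix, x, j, hj, hne⟩ := hL
  have hy : g x i ≠ a := by
    intro e
    have := g.injective (hfix _ e)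
    exact hne (congrFun this j)
  have hR : DA.R G i a x (g x) := ⟨g, hg, hfix, rfl⟩
  obtain ⟨v₀, hv1, hv2, -, -⟩ := avoid4 hG.m5 (x j) (g x j) a a
  obtain ⟨r, hr1, hr2, hr3, -⟩ := avoid4 hG.m5 (x j) (g x j) v₀ a
  have hc : co j (c3 (g x j) v₀ r) ∈ G := hG.c3_mem j hv2.symm hr2.symm
  have h2 := DA.r2 hc (fun z => by rw [co_ne _ _ hj.symm]) hR
  have e1 : co j (c3 (g x j) v₀ r) x = x := by
    rw [co_fix]; exact c3_ne hne.symm hv1.symm hr1.symm
  have e2 : co j (c3 (g x j) v₀ r) (g x) = Function.update (g x) j v₀ := by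
    rw [co_apply, c3_a hv2.symm hr3.symm]
  rw [e1, e2] at h2
  have h3 := hR.symm.trans h2
  intro z hz z' hz'
  rw [mem_hp] at hz hz'
  obtain ⟨k, hk, hkf, hkz⟩ := DA.r5 hG
    (fun z j' v hz hj' hv => DA.r4 hG hy hj hv2.symm h3 hz hj' hv) Finset.univ z z' hz hz'
    (fun l hl => absurd (Finset.mem_univ l) hl)
  exact ⟨k, hk, fun w hw => hkf w (mem_hp.1 hw), hkz⟩

end H93.PW
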