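import Cfsg.Agent.Lib.PW.Defs

set_option autoImplicit false
set_option linter.unusedSectionVars false

namespace H93.PW
open Equiv Equiv.Perm

variable {ι M : Type} [Fintype ι] [DecidableEq ι] [Fintype M] [DecidableEq M]

theorem orb_c3 (i : ι) {a b c : M} (hab : a ≠ b) (hac : a ≠ c) (hbc : b ≠ c) (x x' : ι → M) :
    cyc i {a, b, c} x x' ↔ orb (co i (c3 a b c)) x x' := by
  have e1 := c3_a hab hbc
  have e2 := c3_b a b c
  have e3 := c3_c hac hbc
  have mv : ∀ v, c3 a b c v ≠ v ↔ v ∈ ({a, b, c} : Finset M) := fun v => by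
    simp only [Finset.mem_insert, Finset.mem_singleton]
    constructor
    · intro h
      by_contra hn
      push Not at hn
      exact h (c3_ne hn.1 hn.2.1 hn.2.2)
    · rintro (rfl | rfl | rfl)
      · rw [e1]; exact hab.symm
      · rw [e2]; exact hbc.symm
      · rw [e3]; exact hac
  have pr : ∀ v ∈ ({a, b, c} : Finset M), c3 a b c v ∈ ({a, b, c} : Finset M) := fun v hv =>
    (mv _).1 fun h => (mv v).2 hv ((c3 a b c).injective h)
  constructor
  · rintro ⟨h1, h2, h3⟩
    refine ⟨fun h => (mv _).2 h1 (co_fix.1 h), ?_⟩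
    have ex : ∀ y : ι → M, x' i = y i → (∀ j, j ≠ i → x j = y j) → x' = y := fun y u v => by
      funext j
      by_cases hj : j = i
      · rw [hj, u]
      · rw [← h3 j hj, v j hj]
    have key : x' i = x i ∨ x' i = c3 a b c (x i) ∨ x' i = c3 a b c (c3 a b c (x i)) := by
      simp only [Finset.mem_insert, Finset.mem_singleton] at h1 h2
      rcases h1 with h1 | h1 | h1 <;> rcases h2 with h2 | h2 | h2 <;> simp [h1, h2, e1, e2, e3]
    rcases key with h | h | h
    · exact Or.inl (ex x h fun _ _ => rfl)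
    · exact Or.inr (Or.inl (ex _ (by rw [h, co_self]) fun j hj => (co_ne _ _ hj).symm))
    · exact Or.inr (Or.inr (ex _ (by rw [h, co_self, co_self]) fun j hj => by
        rw [co_ne _ _ hj, co_ne _ _ hj]))
  · rintro ⟨h1, h2⟩
    have m := (mv _).1 fun h => h1 (co_fix.2 h)
    refine ⟨m, ?_⟩
    rcases h2 with rfl | rfl | rfl
    · exact ⟨m, fun _ _ => rfl⟩
    · exact ⟨by rw [co_self]; exact pr _ m, fun j hj => (co_ne _ _ hj).symm⟩
    · exact ⟨by rw [co_self, co_self]; exact pr _ (pr _ m), fun j hj => by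
        rw [co_ne _ _ hj, co_ne _ _ hj]⟩

theorem three_of_mem_W (hm : 5 ≤ Fintype.card M) {s : Perm (ι → M)} (hs : s ∈ W ι M)
    (h3 : s ^ 3 = 1) (hc : s.support.card = 3 * Fintype.card M ^ (Fintype.card ι - 1))
    (i₀ : ι) :
    ∃ (i : ι) (a b c : M), a ≠ b ∧ a ≠ c ∧ b ≠ c ∧ s = co i (c3 a b c) := by
  obtain ⟨π, τ, hs⟩ := mem_W.1 hs
  have pos : 0 < Fintype.card M ^ (Fintype.card ι - 1) := pow_pos (by omega) _
  obtain ⟨a₀⟩ : Nonempty M := Fintype.card_pos_iff.1 (by omega)
  have hπ : ∀ i, π.symm i = i := fun i => by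
    by_contra hj
    have h1 : s.supportᶜ.card ≤ (hp i a₀).card := by
      refine Finset.card_le_card_of_injOn (fun x => Function.update x i a₀) (fun x _ => by simp)
        fun x hx y hy e => ?_
      have u : ∀ j, j ≠ i → x j = y j := fun j hj => by simpa [hj] using congrFun e j
      have fx : s x = x := by simpa using hx
      have fy : s y = y := by simpa using hy
      funext j
      by_cases h : j = i
      · rw [h, ← fx, ← fy, hs, hs, u _ hj]
      · exact u j h
    have h2 := Finset.card_add_card_compl s.support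
    rw [card_hp] at h1
    rw [hc, card_all i₀] at h2
    have := Nat.mul_le_mul_right (Fintype.card M ^ (Fintype.card ι - 1)) hm
    omega
  simp only [hπ] at hs
  obtain ⟨x, hx⟩ : s.support.Nonempty := Finset.card_pos.1 (by omega)
  obtain ⟨i, hi⟩ := Function.ne_iff.1 (mem_support.1 hx)
  rw [hs] at hi
  have t3 : ∀ v, τ i (τ i (τ i v)) = v := fun v => by
    have := congrFun (congrArg (fun g : Perm (ι → M) => g fun _ => v) h3) i
    simpa [pow_succ, Perm.mul_apply, hs] using this
  generalize x i = a at hi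
  have hbc : τ i a ≠ τ i (τ i a) := fun e => hi ((τ i).injective e).symm
  have hac : a ≠ τ i (τ i a) := fun e => hi (by conv_rhs => rw [← t3 a, ← e])
  refine ⟨i, a, τ i a, τ i (τ i a), hi.symm, hac, hbc, ?_⟩
  have hsup : Finset.univ.filter (fun x : ι → M => x i ∈ ({a, τ i a, τ i (τ i a)} : Finset M)) =
      s.support := by
    refine Finset.eq_of_subset_of_card_le (fun x hx => mem_support.2 fun e => ?_) ?_
    · have := congrFun e i
      rw [hs] at this
      simp only [Finset.mem_filter, Finset.mem_univ, true_and, Finset.mem_insert,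
        Finset.mem_singleton] at hx
      rcases hx with h | h | h <;> rw [h] at this
      · exact hi this
      · exact hbc this.symm
      · exact hac ((t3 a).symm.trans this)
    · rw [hc, card_coord, Finset.card_eq_three.2 ⟨_, _, _, hi.symm, hac, hbc, rfl⟩]
  have fx : ∀ x : ι → M, x i ≠ a → x i ≠ τ i a → x i ≠ τ i (τ i a) → s x = x := fun x h1 h2 h3 => by
    rw [← notMem_support, ← hsup]; simp [h1, h2, h3]
  obtain ⟨e, e1, e2, e3, -⟩ := avoid4 hm a (τ i a) (τ i (τ i a)) a
  ext x l
  rw [hs]
  by_cases hl : l = i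
  · rw [hl, co_self]
    by_cases h1 : x i = a
    · rw [h1, c3_a hi.symm hbc]
    by_cases h2 : x i = τ i a
    · rw [h2, c3_b]
    by_cases h4 : x i = τ i (τ i a)
    · rw [h4, c3_c hac hbc, t3]
    rw [c3_ne h1 h2 h4, ← hs, fx x h1 h2 h4]
  · have := congrFun (fx (Function.update x i e) (by simpa using e1) (by simpa using e2)
      (by simpa using e3)) l
    rw [hs, Function.update_of_ne hl] at this
    rw [this, co_ne _ _ hl]

end H93.PW
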