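import Cfsg.Agent.Lib.PW.EQ
import Cfsg.Agent.Lib.PW.X3

set_option autoImplicit false
set_option linter.unusedSectionVars false

namespace H93.PW
open Equiv Equiv.Perm

variable {ι M : Type} [Fintype ι] [DecidableEq ι] [Fintype M] [DecidableEq M]

namespace VL

theorem supp_c3 {a b c : M} (hab : a ≠ b) (hac : a ≠ c) (hbc : b ≠ c) :
    (c3 a b c).support = {a, b, c} := by
  ext v
  simp only [c3, mem_support, Perm.mul_apply, Finset.mem_insert, Finset.mem_singleton,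
    swap_apply_def]
  grind

theorem c3_cube {a b c : M} (hab : a ≠ b) (hac : a ≠ c) (hbc : b ≠ c) : c3 a b c ^ 3 = 1 := by
  ext v
  simp only [c3, pow_succ, pow_zero, Perm.mul_apply, swap_apply_def, Perm.one_apply]
  grind

theorem orb_conj {Ω : Type} (g t : Perm Ω) (x x' : Ω) :
    orb (g⁻¹ * t * g) x x' ↔ orb t (g x) (g x') := by


  simp only [orb, Perm.mul_apply, Perm.coe_inv, Equiv.apply_symm_apply, ne_eq,
    EmbeddingLike.apply_eq_iff_eq, Equiv.symm_apply_eq, Equiv.eq_symm_apply]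

end VL
open VL

theorem mem_W_of_values {G : Subgroup (Perm (ι → M))} (hG : Hyp G) {Θ : Finset M}
    (hΘ : Θ.card = 3) {I : Finset ι} {i : ι} (hi : i ∉ I) (IH : CJ G Θ (insert i I) ≤ W ι M)
    (A : Set (ι → M)) (hA : ∀ x ∈ A, ∀ j ∈ I, x j ∈ Θ)
    (hst : ∀ h ∈ CJ G Θ I, (∀ x ∈ A, eqv Θ I (h x) x) → h ∈ W ι M)
    {g : Perm (ι → M)} (hg : g ∈ CJ G Θ I) (p q : M) (hv : ∀ x ∈ A, g x i = p ∨ g x i = q) :
    g ∈ W ι M := by
  obtain ⟨a, ap, aq, -⟩ := avoid4 hG.m5 p q q q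
  obtain ⟨b, bp, bq, ba, -⟩ := avoid4 hG.m5 p q a a
  obtain ⟨c, cp, cq, ca, cb⟩ := avoid4 hG.m5 p q a b
  have hab := ba.symm
  have hac := ca.symm
  have hbc := cb.symm
  have ht : co i (c3 a b c) ∈ CJ G Θ I := co_mem_CJ hG Θ hi (sign_c3 hab hac)
  have hs : g⁻¹ * co i (c3 a b c) * g ∈ CJ G Θ I := mul_mem (mul_mem (inv_mem hg) ht) hg
  have hsW : g⁻¹ * co i (c3 a b c) * g ∈ W ι M := by
    refine hst _ hs fun x hx => ?_
    have : co i (c3 a b c) (g x) = g x := by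
      rw [co_fix]
      rcases hv x hx with h | h <;> rw [h]
      · exact c3_ne ap.symm bp.symm cp.symm
      · exact c3_ne aq.symm bq.symm cq.symm
    have e : (g⁻¹ * co i (c3 a b c) * g) x = x := by simp [Perm.mul_apply, this]
    rw [e]
    exact ⟨hA x hx, hA x hx, fun _ _ => rfl⟩
  have h3 : (g⁻¹ * co i (c3 a b c) * g) ^ 3 = 1 := by
    have := conj_pow (a := g⁻¹) (b := co i (c3 a b c)) (i := 3)
    rw [inv_inv] at this
    rw [this, ← co_pow, c3_cube hab hac hbc, co_one]; group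
  have hc : (g⁻¹ * co i (c3 a b c) * g).support.card
      = 3 * Fintype.card M ^ (Fintype.card ι - 1) := by
    have := card_support_conj (σ := g⁻¹) (τ := co i (c3 a b c))
    rw [inv_inv] at this
    rw [this, card_support_co, supp_c3 hab hac hbc, Finset.card_eq_three.mpr
      ⟨a, b, c, hab, hac, hbc, rfl⟩]
  obtain ⟨i', a', b', c', hab', hac', hbc', he⟩ := three_of_mem_W hG.m5 hsW h3 hc i
  have hi' : i' ∉ I := by
    intro hi'
    obtain ⟨θ, hθ⟩ := Finset.card_pos.mp (show 0 < Θ.card by omega)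
    set y : ι → M := Function.update (fun _ => θ) i a with hy
    have hyI : ∀ j ∈ I, y j ∈ Θ := fun j hj => by
      have : j ≠ i := fun e => hi (e ▸ hj)
      rw [hy, Function.update_of_ne this]; exact hθ
    have e1 : eqv Θ I (g⁻¹ y) (g⁻¹ y) := eqv_map (inv_mem hg) ⟨hyI, hyI, fun _ _ => rfl⟩
    have e2 := eqv_map hs e1
    have e3 : eqv Θ I ((g⁻¹ * co i (c3 a b c) * g) (g⁻¹ y)) (g⁻¹ y) :=
      ⟨e2.1, e1.1, fun j hj => by
        rw [he]; exact co_ne _ _ (fun e => hj (e ▸ hi'))⟩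
    have e4 := (eqv_map hg e3).2.2 i hi
    simp [Perm.mul_apply, hy, c3_a hab hbc] at e4
    exact ba e4
  refine mem_W_of_mp hG hΘ hi hi' IH hg
    (Finset.card_eq_three.mpr ⟨a', b', c', hab', hac', hbc', rfl⟩)
    (Finset.card_eq_three.mpr ⟨a, b, c, hab, hac, hbc, rfl⟩) fun x x' => ?_
  rw [orb_c3 i' hab' hac' hbc', orb_c3 i hab hac hbc, ← he, orb_conj]

end H93.PW
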