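import Cfsg.Agent.Lib.PW.P4
import Cfsg.Agent.Lib.PW.VL

set_option autoImplicit false
set_option linter.unusedSectionVars false

namespace H93.PW
open Equiv Equiv.Perm

variable {ι M : Type} [Fintype ι] [DecidableEq ι] [Fintype M] [DecidableEq M]

namespace DS

theorem pf_mul {i : ι} {g h : Perm (ι → M)} (hg : PF i g) (hh : PF i h) : PF i (g * h) := by
  obtain ⟨⟨σ, a⟩, b⟩ := hg
  obtain ⟨⟨τ, c⟩, d⟩ := hh
  exact ⟨⟨σ * τ, fun x => by rw [Perm.mul_apply, a, c, Perm.mul_apply]⟩, fun x x' => (d x x').trans (b _ _)⟩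

theorem pf_co (i j : ι) (σ : Perm M) : PF i (co j σ) := by
  refine ⟨⟨if i = j then σ else 1, fun x => EQ.co_eq j σ x i⟩, fun x x' => ?_⟩
  simp only [EQ.co_eq, EmbeddingLike.apply_eq_iff_eq]
  rfl

variable {G : Subgroup (Perm (ι → M))} {Θ : Finset M}

theorem eqv_upd {θ : M} (hθ : θ ∈ Θ) {I : Finset ι} {i : ι} (hi : i ∉ I) (v : M) :
    ∀ j ∈ I, Function.update (fun _ : ι => θ) i v j ∈ Θ := fun j hj => by
  rw [Function.update_of_ne (ne_of_mem_of_not_mem hj hi)]
  exact hθ

theorem last (hG : Hyp G) (h2 : Two G) (hk : 2 ≤ Fintype.card ι) (hΘ : Θ.card = 3) {i : ι}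
    {g : Perm (ι → M)} (hg : g ∈ CJ G Θ (Finset.univ.erase i)) : PF i g := by
  obtain ⟨p, hp, q, hq, pq⟩ := Finset.one_lt_card.1 (by omega : 1 < Θ.card)
  obtain ⟨j, ji⟩ := Fintype.exists_ne_of_one_lt_card (by omega : 1 < Fintype.card ι) i
  have hi : i ∉ Finset.univ.erase i := Finset.notMem_erase i _
  have out : ∀ l, l ∉ Finset.univ.erase i → l = i := fun l hl => by simpa using hl
  have mem : ∀ h ∈ CJ G Θ (Finset.univ.erase i), ∀ v, ∀ l ∈ Finset.univ.erase i,
      h (Function.update (fun _ => p) i v) l ∈ Θ := fun h hh v =>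
    (eqv_map hh ⟨eqv_upd hp hi v, eqv_upd hp hi v, fun _ _ => rfl⟩).1
  have inj : Function.Injective fun v => g (Function.update (fun _ => p) i v) i := fun v v' e => by
    have := (eqv_map (inv_mem hg) (x := g (Function.update (fun _ => p) i v))
      (x' := g (Function.update (fun _ => p) i v')) ⟨mem g hg v, mem g hg v', fun l hl => by
        rw [out l hl]; exact e⟩).2.2 i hi
    simpa using this
  let σ : Perm M := Equiv.ofBijective _ (Finite.injective_iff_bijective.1 inj)
  obtain ⟨ω, a, b, c⟩ : ∃ ω ∈ CJ G Θ (Finset.univ.erase i), PF i ω ∧ ∀ x, ω x i = σ (x i) := by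
    have m1 : ∀ l ∈ Finset.univ.erase i, Mp (co i σ) l Θ l Θ := fun l hl =>
      EQ.mp_co_ne (ne_of_mem_of_not_mem hl hi) σ Θ
    rcases hG.adj _ (co_mem_W i σ) j p q pq with k | k
    · exact ⟨_, ⟨k, m1⟩, pf_co i i σ, fun x => co_self i σ x⟩
    · refine ⟨_, ⟨k, fun l hl => (m1 l hl).mul ?_⟩, pf_mul (pf_co i i σ) (pf_co i j _), fun x => ?_⟩
      · by_cases e : l = j
        · subst e
          refine EQ.mp_co_self l fun v => ?_
          rw [swap_apply_def]
          split_ifs with a b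
          · simp [a, hp, hq]
          · simp [b, hp, hq]
          · rfl
        · exact EQ.mp_co_ne e _ Θ
      · rw [Perm.mul_apply, co_self, co_ne _ _ ji.symm]
  obtain ⟨S, -, hS⟩ := Finset.exists_subset_card_eq (s := (Finset.univ : Finset M)) (n := 4)
    (by have := hG.m5; rw [Finset.card_univ]; omega)
  have := pf_of_four hG h2 hi (fun _ => p) hS (mul_mem (inv_mem a) hg) fun v _ => by
    have := eqv_map (inv_mem a) (x := g (Function.update (fun _ => p) i v))
      (x' := ω (Function.update (fun _ => p) i v)) ⟨mem g hg v, mem ω a v, fun l hl => by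
        rw [out l hl, c, Function.update_self]; rfl⟩
    simpa using this
  simpa using pf_mul b this

theorem base (hG : Hyp G) (h2 : Two G) (hk : 2 ≤ Fintype.card ι) (hΘ : Θ.card = 3) :
    CJ G Θ Finset.univ ≤ W ι M := fun g hg => by
  have : ∀ i, ∃ σ : Perm M, ∀ x, g x i = σ (x i) := fun i =>
    (last hG h2 hk hΘ (i := i) ⟨hg.1, fun j _ => hg.2 j (Finset.mem_univ j)⟩).1
  choose τ h using this
  exact ⟨1, τ, fun f i => h i f⟩

theorem step (hG : Hyp G) (h2 : Two G) (hk : 2 ≤ Fintype.card ι) (hΘ : Θ.card = 3) {I : Finset ι} {i : ι}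
    (hi : i ∉ I) (IH : ∀ j, j ∉ I → CJ G Θ (insert j I) ≤ W ι M) : CJ G Θ I ≤ W ι M := by
  by_cases e : I = Finset.univ.erase i
  · intro g hg
    exact mem_W_of_pf hG hΘ hi (IH i hi) hg (last hG h2 hk hΘ (e ▸ hg))
  obtain ⟨i₂, h₂, ne⟩ : ∃ i₂, i₂ ∉ I ∧ i₂ ≠ i := by
    by_contra k
    push Not at k
    refine e (Finset.ext fun j => ?_)
    simp only [Finset.mem_erase, Finset.mem_univ, and_true]
    exact ⟨fun hj => ne_of_mem_of_not_mem hj hi, fun hj => by_contra fun n => hj (k j n)⟩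
  obtain ⟨θ, hθ⟩ := Finset.card_pos.1 (by omega : 0 < Θ.card)
  have Q : ∀ d : ℕ, ∀ S : Finset M, S.card + d = 4 → ∀ h ∈ CJ G Θ I,
      (∀ v ∈ S, eqv Θ I (h (Function.update (fun _ => θ) i v)) (Function.update (fun _ => θ) i v)) →
      h ∈ W ι M := by
    intro d
    induction d with
    | zero => exact fun S hS h hh fx => mem_W_of_pf hG hΘ hi (IH i hi) hh (pf_of_four hG h2 hi _ hS hh fx)
    | succ d ih =>
      intro S hS h hh fx
      obtain ⟨v₀, -, hv⟩ := Finset.exists_mem_notMem_of_card_lt_card (s := S) (t := Finset.univ)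
        (by have := hG.m5; rw [Finset.card_univ]; omega)
      refine mem_W_of_values hG hΘ h₂ (IH i₂ h₂) (Function.update (fun _ => θ) i '' (insert v₀ S : Finset M))
        ?_ (fun h' hh' k => ih (insert v₀ S) (by rw [Finset.card_insert_of_notMem hv]; omega) h' hh'
          fun v hv => k _ ⟨v, hv, rfl⟩) hh θ (h (Function.update (fun _ => θ) i v₀) i₂) ?_
      · rintro _ ⟨v, -, rfl⟩
        exact eqv_upd hθ hi v
      · rintro _ ⟨v, hv, rfl⟩
        rcases Finset.mem_insert.1 (Finset.mem_coe.1 hv) with rfl | hv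
        · exact Or.inr rfl
        · exact Or.inl (((fx v hv).2.2 i₂ h₂).trans (Function.update_of_ne ne _ _))
  exact fun g hg => Q 4 ∅ rfl g hg fun v hv => absurd hv (Finset.notMem_empty v)

end DS

theorem le_W_of_two {G : Subgroup (Perm (ι → M))} (hG : Hyp G) (h2 : Two G)
    (hk : 2 ≤ Fintype.card ι) : G ≤ W ι M := by
  obtain ⟨Θ, -, hΘ⟩ := Finset.exists_subset_card_eq (s := (Finset.univ : Finset M)) (n := 3)
    (by have := hG.m5; rw [Finset.card_univ]; omega)
  have key : ∀ n : ℕ, ∀ I : Finset ι, Iᶜ.card = n → CJ G Θ I ≤ W ι M := by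
    intro n
    induction n with
    | zero =>
      intro I hI
      rw [Finset.card_eq_zero, Finset.compl_eq_empty_iff] at hI
      exact hI ▸ DS.base hG h2 hk hΘ
    | succ n ih =>
      intro I hI
      obtain ⟨i, hi⟩ := Finset.card_pos.1 (by omega : 0 < Iᶜ.card)
      refine DS.step hG h2 hk hΘ (Finset.mem_compl.1 hi) fun j hj => ih _ ?_
      rw [Finset.compl_insert, Finset.card_erase_of_mem (Finset.mem_compl.2 hj), hI]
      rfl
  exact fun g hg => key _ ∅ rfl ⟨hg, fun j hj => absurd hj (Finset.notMem_empty j)⟩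

end H93.PW
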