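import Cfsg.Agent.Lib.PW.Defs

set_option autoImplicit false
set_option linter.unusedSectionVars false

namespace H93.PW
open Equiv Equiv.Perm

variable {ι M : Type} [Fintype ι] [DecidableEq ι] [Fintype M] [DecidableEq M]

namespace EQ

theorem mp_of {g : Perm (ι → M)} {π : Perm ι} {τ : ι → Perm M} (hg : ∀ f l, g f l = τ l (f (π.symm l)))
    {j j' : ι} (e : π j = j') {A B : Finset M} (h : ∀ v, v ∈ A ↔ τ j' v ∈ B) : Mp g j A j' B := by
  subst e
  intro x x'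
  simp only [cyc, hg, Equiv.symm_apply_apply, ← h, EmbeddingLike.apply_eq_iff_eq]
  refine and_congr_right fun _ => and_congr_right fun _ => ⟨fun k l hl => k _ fun e => hl ?_, fun k l hl => ?_⟩
  · rw [← e, Equiv.apply_symm_apply]
  · simpa using k (π l) (π.injective.ne hl)

theorem co_eq (i : ι) (σ : Perm M) (f : ι → M) (l : ι) :
    co i σ f l = (if l = i then σ else 1) (f ((1 : Perm ι).symm l)) := by
  by_cases h : l = i
  · subst h; simp [Perm.one_def]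
  · simp [h, co_ne _ _ h, Perm.one_def]

theorem mp_co_ne {i j : ι} (h : j ≠ i) (σ : Perm M) (A : Finset M) : Mp (co i σ) j A j A :=
  mp_of (co_eq i σ) rfl fun v => by simp [h]

theorem mp_co_self (i : ι) {σ : Perm M} {A B : Finset M} (h : ∀ v, v ∈ A ↔ σ v ∈ B) : Mp (co i σ) i A i B :=
  mp_of (co_eq i σ) rfl fun v => by simpa using h v

theorem exists_perm {A B : Finset M} (h : A.card = B.card) : ∃ ρ : Perm M, ∀ v, v ∈ A ↔ ρ v ∈ B := by
  obtain ⟨ρ, e⟩ := Equiv.Perm.exists_map_finset_eq A B h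
  refine ⟨ρ, fun v => ?_⟩
  rw [← e, Finset.mem_map_equiv, Equiv.symm_apply_apply]

end EQ

open EQ

theorem co_mem_CJ {G : Subgroup (Perm (ι → M))} (hG : Hyp G) (Θ : Finset M) {I : Finset ι} {i : ι}
    (hi : i ∉ I) {σ : Perm M} (hσ : sign σ = 1) : co i σ ∈ CJ G Θ I :=
  ⟨hG.alt i σ hσ, fun _ hj => mp_co_ne (ne_of_mem_of_not_mem hj hi) σ Θ⟩

theorem eqv_map {G : Subgroup (Perm (ι → M))} {Θ : Finset M} {I : Finset ι} {g : Perm (ι → M)}
    (hg : g ∈ CJ G Θ I) {x x' : ι → M} (h : eqv Θ I x x') : eqv Θ I (g x) (g x') := by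
  have mem : ∀ y : ι → M, (∀ j ∈ I, y j ∈ Θ) → ∀ j ∈ I, g y j ∈ Θ := fun y hy j hj =>
    ((hg.2 j hj y y).1 ⟨hy j hj, hy j hj, fun _ _ => rfl⟩).1
  refine ⟨mem x h.1, mem x' h.2.1, ?_⟩
  have key : ∀ D : Finset ι, D ⊆ I → ∀ y : ι → M, (∀ j ∈ I, y j ∈ Θ) → (∀ j, j ∉ D → y j = x' j) →
      ∀ l, l ∉ I → g y l = g x' l := by
    intro D
    induction D using Finset.induction_on with
    | empty =>
      intro _ y _ e l _
      rw [show y = x' from funext fun j => e j (Finset.notMem_empty j)]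
    | insert j D _ ih =>
      intro hD y hy e l hl
      have jI : j ∈ I := hD (Finset.mem_insert_self j D)
      have c : cyc j Θ y (Function.update y j (x' j)) :=
        ⟨hy j jI, by simpa using h.2.1 j jI, fun l hl => (Function.update_of_ne hl _ _).symm⟩
      rw [((hg.2 j jI _ _).1 c).2.2 l fun e => hl (e ▸ jI)]
      refine ih ((Finset.subset_insert j D).trans hD) _ (fun m hm => ?_) (fun m hm => ?_) l hl
      · by_cases k : m = j
        · subst k; simpa using h.2.1 m hm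
        · rw [Function.update_of_ne k]; exact hy m hm
      · by_cases k : m = j
        · subst k; simp
        · rw [Function.update_of_ne k]; exact e m (by simp [k, hm])
  exact key I le_rfl x h.1 h.2.2

theorem exists_tr {G : Subgroup (Perm (ι → M))} (hG : Hyp G) (Θ : Finset M) {I : Finset ι}
    {i i' : ι} (hi : i ∉ I) (hi' : i' ∉ I) {Θ₁ Θ₂ : Finset M} (h₁ : Θ₁.card = 3)
    (h₂ : Θ₂.card = 3) : ∃ ω ∈ CJ G Θ I, ω ∈ W ι M ∧ Mp ω i Θ₁ i' Θ₂ := by
  obtain ⟨ρ, hρ⟩ := exists_perm (h₁.trans h₂.symm)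
  obtain ⟨p, hp, q, hq, pq⟩ := Finset.one_lt_card.1 (by omega : 1 < Θ₁.card)
  let w : Perm (ι → M) := mk (swap i i') fun l => if l = i' then ρ else 1
  have w1 : Mp w i Θ₁ i' Θ₂ := mp_of (mk_apply _ _) (swap_apply_left i i') fun v => by simpa using hρ v
  have w2 : ∀ j ∈ I, Mp w j Θ j Θ := fun j hj => by
    have a : j ≠ i := fun e => hi (e ▸ hj)
    have b : j ≠ i' := fun e => hi' (e ▸ hj)
    exact mp_of (mk_apply _ _) (swap_apply_of_ne_of_ne a b) fun v => by simp [b]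
  rcases hG.adj w (mk_mem_W _ _) i p q pq with k | k
  · exact ⟨w, ⟨k, w2⟩, mk_mem_W _ _, w1⟩
  · refine ⟨_, ⟨k, fun j hj => (w2 j hj).mul (mp_co_ne (ne_of_mem_of_not_mem hj hi) _ Θ)⟩,
      mul_mem (mk_mem_W _ _) (co_mem_W _ _), w1.mul (mp_co_self i fun v => ?_)⟩
    rw [swap_apply_def]
    split_ifs with a b
    · simp [a, hp, hq]
    · simp [b, hp, hq]
    · rfl

theorem mem_W_of_mp {G : Subgroup (Perm (ι → M))} (hG : Hyp G) {Θ : Finset M} (hΘ : Θ.card = 3)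
    {I : Finset ι} {i i' : ι} (hi : i ∉ I) (hi' : i' ∉ I) (IH : CJ G Θ (insert i I) ≤ W ι M)
    {g : Perm (ι → M)} (hg : g ∈ CJ G Θ I) {Θ₁ Θ₂ : Finset M} (h₁ : Θ₁.card = 3)
    (h₂ : Θ₂.card = 3) (hm : Mp g i' Θ₁ i Θ₂) : g ∈ W ι M := by
  obtain ⟨ω₁, a1, b1, c1⟩ := exists_tr hG Θ hi hi' hΘ h₁
  obtain ⟨ω₂, a2, b2, c2⟩ := exists_tr hG Θ hi hi h₂ hΘ
  have m : ω₂ * (g * ω₁) ∈ CJ G Θ I := mul_mem a2 (mul_mem hg a1)
  have := IH (x := ω₂ * (g * ω₁)) ⟨m.1, fun j hj => by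
    rcases Finset.mem_insert.1 hj with rfl | hj
    exacts [c2.mul (hm.mul c1), m.2 j hj]⟩
  exact (mul_mem_cancel_right b1).1 ((mul_mem_cancel_left b2).1 this)

theorem mem_W_of_pf {G : Subgroup (Perm (ι → M))} (hG : Hyp G) {Θ : Finset M} (hΘ : Θ.card = 3)
    {I : Finset ι} {i : ι} (hi : i ∉ I) (IH : CJ G Θ (insert i I) ≤ W ι M)
    {g : Perm (ι → M)} (hg : g ∈ CJ G Θ I) (hp : PF i g) : g ∈ W ι M := by
  obtain ⟨⟨σ, hσ⟩, h⟩ := hp
  refine mem_W_of_mp hG hΘ hi hi IH hg hΘ (Θ₂ := Θ.map σ.toEmbedding) (by rw [Finset.card_map, hΘ])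
    fun x x' => ?_
  simp only [cyc, hσ, Finset.mem_map_equiv, Equiv.symm_apply_apply, h x x']

end H93.PW
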