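import Cfsg.Agent.Lib.PW.AV
import Cfsg.Agent.S4220
import Cfsg.Agent.S0711

/-! The end of the Jordan case: high transitivity gives the alternating group. -/

set_option autoImplicit false
set_option linter.unusedSectionVars false

namespace H93.PW
open Equiv Equiv.Perm

variable {ι M : Type} [Fintype ι] [DecidableEq ι] [Fintype M] [DecidableEq M]

theorem FN.arith {m N : ℕ} (h5 : 5 ≤ m) (h9 : m ≤ 9) (h : N = m ∨ N = m ^ 2 ∨ m ^ 3 ≤ N) :
    ∃ q p r, p.Prime ∧ m * N = q * p + r ∧ 1 ≤ q ∧ q < p ∧ q < r ∧ r ≤ N ∧ r ≠ 2 := by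
  rcases h with rfl | rfl | h
  · interval_cases N
    exacts [⟨4, 5, 5, by norm_num⟩, ⟨1, 31, 5, by norm_num⟩, ⟨1, 43, 6, by norm_num⟩, ⟨1, 59, 5, by norm_num⟩,
      ⟨1, 73, 8, by norm_num⟩]
  · interval_cases m
    exacts [⟨10, 11, 15, by norm_num⟩, ⟨11, 17, 29, by norm_num⟩, ⟨16, 19, 39, by norm_num⟩,
      ⟨20, 23, 52, by norm_num⟩, ⟨23, 29, 62, by norm_num⟩]
  have n0 : 125 ≤ N := (Nat.pow_le_pow_left h5 3).trans h
  obtain ⟨p, hp, l1, l2⟩ := Nat.exists_prime_lt_and_le_two_mul (N / 4) (by omega)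
  obtain ⟨k, rfl⟩ : ∃ k, m = k + 1 := ⟨m - 1, by omega⟩
  have e := Nat.div_add_mod (k * N + p - 1) p
  have l := Nat.mod_lt (k * N + p - 1) hp.pos
  generalize (k * N + p - 1) / p = q at e
  have kN : k * N < k * (4 * p) := Nat.mul_lt_mul_of_pos_left (by omega) (by omega)
  have q1 : q ≤ 4 * k := Nat.le_of_lt_succ (Nat.lt_of_mul_lt_mul_left (a := p) (by
    rw [Nat.mul_succ, show p * (4 * k) = k * (4 * p) by ring]; omega))
  have q2 : 4 * k < p := by
    have : k ≤ 8 := by omega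
    have : 4 ≤ k := by omega
    interval_cases k <;> omega
  have : N ≤ k * N := Nat.le_mul_of_pos_left _ (by omega)
  refine ⟨q, p, (k + 1) * N - p * q, hp, ?_, Nat.pos_of_ne_zero ?_, by omega, ?_, ?_, ?_⟩
  · rw [add_mul, mul_comm q]; omega
  · rintro rfl; omega
  all_goals rw [add_mul]; omega

theorem alt_of_multi {G : Subgroup (Perm (ι → M))} (hG : Hyp G) (hk : 2 ≤ Fintype.card ι)
    (h : MulAction.IsMultiplyPretransitive G (ι → M)
      (Fintype.card M ^ (Fintype.card ι - 1) + 1)) : alternatingGroup (ι → M) ≤ G := by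
  have m5 := hG.m5
  obtain ⟨i⟩ : Nonempty ι := Fintype.card_pos_iff.1 (by omega)
  have n := card_all (M := M) i
  have mN : Fintype.card M ≤ Fintype.card M ^ (Fintype.card ι - 1) := Nat.le_self_pow (by omega) _
  have cs : Fintype.card M ^ (Fintype.card ι - 1) = Fintype.card M ∨
      Fintype.card M ^ (Fintype.card ι - 1) = Fintype.card M ^ 2 ∨
      Fintype.card M ^ 3 ≤ Fintype.card M ^ (Fintype.card ι - 1) := by
    rcases (by omega : Fintype.card ι - 1 = 1 ∨ Fintype.card ι - 1 = 2 ∨ 3 ≤ Fintype.card ι - 1) with e | e | e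
    exacts [.inl (by rw [e, pow_one]), .inr (.inl (by rw [e])), .inr (.inr (Nat.pow_le_pow_right (by omega) e))]
  have sp := fun σ : Perm M => card_support_co i σ
  generalize Fintype.card M ^ (Fintype.card ι - 1) = N at *
  have n5 : 5 * N ≤ Fintype.card (ι → M) := n ▸ Nat.mul_le_mul_right N m5
  have low : ∀ r ≤ N + 1, MulAction.IsMultiplyPretransitive G (ι → M) r := fun r hr =>
    MulAction.isMultiplyPretransitive_of_le hr (by rw [Nat.card_eq_fintype_card]; omega)
  by_cases h9 : Fintype.card M ≤ 9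
  · obtain ⟨q, p, r, hp, e, a, b, c, d, f⟩ := FN.arith m5 h9 cs
    exact Cfsg.Agent.S4220.result G hp (n.trans e) a b c (fun x => f x.2) (low _ (by omega))
  obtain ⟨a⟩ : Nonempty M := Fintype.card_pos_iff.1 (by omega)
  obtain ⟨b, ba, -⟩ := avoid4 m5 a a a a
  obtain ⟨c, ca, cb, -⟩ := avoid4 m5 a b a a
  obtain ⟨w, ⟨hw, w1⟩, mn⟩ := Set.exists_min_image {w : Perm (ι → M) | w ∈ G ∧ w ≠ 1}
    (fun w => w.support.card) (Set.toFinite _) ⟨co i (c3 a b c), hG.c3_mem i ba.symm ca.symm, fun e => ba (by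
      have := congrFun (Equiv.congr_fun e fun _ => a) i
      rwa [co_self, c3_a ba.symm cb.symm] at this)⟩
  have le : w.support.card ≤ 3 * N := by
    refine (mn (co i (c3 a b c)) ⟨hG.c3_mem i ba.symm ca.symm, fun e => ba (by
      have := congrFun (Equiv.congr_fun e fun _ => a) i
      rwa [co_self, c3_a ba.symm cb.symm] at this)⟩).trans (sp _ ▸ Nat.mul_le_mul_right N
        ((Finset.card_le_card (t := {a, b, c}) fun v hv => by_contra fun d => ?_).trans Finset.card_le_three))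
    simp only [Finset.mem_insert, Finset.mem_singleton, not_or] at d
    exact mem_support.1 hv (c3_ne d.1 d.2.1 d.2.2)
  refine (Cfsg.Agent.S0711.result G le_rfl (by omega) (low 3 (by omega)) w hw w1 (by_contra fun d => ?_)).2
  have := avg (low 3 (by omega)) hw w1 (fun g hg g1 => mn g ⟨hg, g1⟩) (by omega)
  have n10 : 10 * N ≤ Fintype.card (ι → M) := n ▸ Nat.mul_le_mul_right N (by omega)
  obtain ⟨t, ht⟩ : ∃ t, w.support.card = t + 4 := ⟨w.support.card - 4, by omega⟩
  obtain ⟨u, hu⟩ : ∃ u, Fintype.card (ι → M) = 3 * t + 22 + u := ⟨Fintype.card (ι → M) - (3 * t + 22), by omega⟩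
  rw [ht, hu, show 3 * t + 22 + u - 2 = 3 * t + 20 + u by omega, show t + 4 - 1 = t + 3 by omega,
    show t + 4 - 2 = t + 2 by omega] at this
  nlinarith

end H93.PW
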