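import Cfsg.Agent.Lib.PW.Defs

/-! Jordan complements: generic lemmas. -/

set_option autoImplicit false
set_option linter.unusedSectionVars false

namespace H93.PW
open Equiv Equiv.Perm

variable {ι M : Type} [Fintype ι] [DecidableEq ι] [Fintype M] [DecidableEq M]

variable {Ω : Type} [Fintype Ω] [DecidableEq Ω]

theorem J_image {G : Subgroup (Perm Ω)} {X : Finset Ω} (hJ : J G X) {g : Perm Ω} (hg : g ∈ G) :
    J G (X.image g) := fun x hx y hy => by
  obtain ⟨h, hh, f, e⟩ := hJ (g⁻¹ x) (fun c => hx (Finset.mem_image.2 ⟨_, c, by simp⟩))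
    (g⁻¹ y) fun c => hy (Finset.mem_image.2 ⟨_, c, by simp⟩)
  refine ⟨g * h * g⁻¹, mul_mem (mul_mem hg hh) (inv_mem hg), fun z hz => ?_, by
    rw [Perm.mul_apply, Perm.mul_apply, e]; simp⟩
  obtain ⟨w, hw, rfl⟩ := Finset.mem_image.1 hz
  simp [f w hw]

theorem J_inter {G : Subgroup (Perm Ω)} {X Y : Finset Ω} (hX : J G X) (hY : J G Y)
    (h : ∃ z, z ∉ X ∧ z ∉ Y) : J G (X ∩ Y) := by
  obtain ⟨z, zX, zY⟩ := h
  have k : ∀ x, x ∉ X ∩ Y → ∃ g ∈ G, (∀ w ∈ X ∩ Y, g w = w) ∧ g x = z := fun x hx => by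
    by_cases c : x ∈ X
    · obtain ⟨g, hg, f, e⟩ := hY x (fun d => hx (Finset.mem_inter.2 ⟨c, d⟩)) z zY
      exact ⟨g, hg, fun w hw => f w (Finset.mem_inter.1 hw).2, e⟩
    · obtain ⟨g, hg, f, e⟩ := hX x c z zX
      exact ⟨g, hg, fun w hw => f w (Finset.mem_inter.1 hw).1, e⟩
  intro x hx y hy
  obtain ⟨g, hg, f, e⟩ := k x hx
  obtain ⟨g', hg', f', e'⟩ := k y hy
  exact ⟨g'⁻¹ * g, mul_mem (inv_mem hg') hg, fun w hw => by
    rw [Perm.mul_apply, f w hw, Perm.inv_eq_iff_eq, f' w hw], by rw [Perm.mul_apply, e, Perm.inv_eq_iff_eq, e']⟩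

theorem witt {G : Subgroup (Perm Ω)} {Γ : Finset Ω} (hJ : J G Γ)
    (h2 : 2 * Γ.card < Fintype.card Ω) {g : Perm Ω} (hg : g ∈ G) (X : Finset Ω) (hX : X ⊆ Γ)
    (hgX : ∀ x ∈ X, g x ∈ Γ) : ∃ h ∈ G, Γ.image h = Γ ∧ ∀ x ∈ X, h x = g x := by
  obtain ⟨h, ⟨hh, e⟩, mx⟩ := Set.exists_max_image {h : Perm Ω | h ∈ G ∧ ∀ x ∈ X, h x = g x}
    (fun h => (Γ.image h ∩ Γ).card) (Set.toFinite _) ⟨g, hg, fun _ _ => rfl⟩
  refine ⟨h, hh, by_contra fun ne => ?_, e⟩
  have c : (Γ.image h).card = Γ.card := Finset.card_image_of_injective _ h.injective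
  obtain ⟨γ, h1, h1'⟩ := Finset.not_subset.1 fun s => ne (Finset.eq_of_subset_of_card_le s c.ge)
  obtain ⟨γ', h3, h3'⟩ := Finset.not_subset.1 fun s => ne (Finset.eq_of_subset_of_card_le s c.le).symm
  obtain ⟨z, hz⟩ := Finset.exists_mem_notMem_of_card_lt_card (s := Γ.image h ∪ Γ) (t := Finset.univ)
    ((Finset.card_union_le _ _).trans_lt (by rw [c, Finset.card_univ]; omega))
  obtain ⟨l, hl, f, el⟩ := J_inter (J_image hJ hh) hJ ⟨z, by simpa using hz⟩ γ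
    (fun a => h1' (Finset.mem_inter.1 a).2) γ' fun a => h3' (Finset.mem_inter.1 a).1
  have := mx (l * h) ⟨mul_mem hl hh, fun x hx => by
    rw [Perm.mul_apply, f _ (Finset.mem_inter.2 ⟨Finset.mem_image_of_mem _ (hX hx), (e x hx).symm ▸ hgX x hx⟩),
      e x hx]⟩
  refine this.not_gt (Finset.card_lt_card ⟨fun w hw => ?_, fun s => h3' (Finset.mem_inter.1 (s ?_)).1⟩)
  · obtain ⟨v, hv, rfl⟩ := Finset.mem_image.1 (Finset.mem_inter.1 hw).1
    exact Finset.mem_inter.2 ⟨Finset.mem_image.2 ⟨v, hv, f _ hw⟩, (Finset.mem_inter.1 hw).2⟩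
  · obtain ⟨v, hv, rfl⟩ := Finset.mem_image.1 h1
    exact Finset.mem_inter.2 ⟨Finset.mem_image.2 ⟨v, hv, el⟩, h3⟩

theorem J_sub {G : Subgroup (Perm Ω)} {Γ : Finset Ω} (hJ : J G Γ)
    (hΓ : Γ.card < Fintype.card Ω) (he : ∀ γ ∈ Γ, J G (Γ.erase γ)) :
    ∀ X, X ⊆ Γ → J G X := by
  obtain ⟨z, -, hz⟩ := Finset.exists_mem_notMem_of_card_lt_card (s := Γ) (t := Finset.univ) hΓ
  have k : ∀ D : Finset Ω, D ⊆ Γ → J G (Γ \ D) := fun D => by
    induction D using Finset.induction_on with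
    | empty => exact fun _ => by rwa [Finset.sdiff_empty]
    | insert γ D _ ih =>
      intro s
      rw [show Γ \ insert γ D = (Γ \ D) ∩ Γ.erase γ by ext; simp; tauto]
      exact J_inter (ih ((Finset.subset_insert _ _).trans s)) (he γ (s (Finset.mem_insert_self _ _)))
        ⟨z, fun c => hz (Finset.mem_sdiff.1 c).1, fun c => hz (Finset.mem_of_mem_erase c)⟩
  exact fun X hX => Finset.sdiff_sdiff_eq_self hX ▸ k _ Finset.sdiff_subset

theorem multi {G : Subgroup (Perm Ω)} {Γ : Finset Ω} (hΓ : Γ.card < Fintype.card Ω)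
    (h : ∀ X, X ⊆ Γ → J G X) : MulAction.IsMultiplyPretransitive G Ω (Γ.card + 1) := by
  obtain ⟨z, -, hz⟩ := Finset.exists_mem_notMem_of_card_lt_card (s := Γ) (t := Finset.univ) hΓ
  let f : ℕ → Ω := fun t => if c : t < Γ.card then Γ.equivFin.symm ⟨t, c⟩ else z
  have fm : ∀ t < Γ.card, f t ∈ Γ := fun t c => by simp only [f, dif_pos c]; exact Subtype.property _
  have fi : ∀ t r, t < r → r ≤ Γ.card → f t ≠ f r := fun t r a b e => by
    by_cases c : r < Γ.card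
    · simp only [f, dif_pos c, dif_pos (a.trans c)] at e
      exact a.ne (Fin.mk.inj (Γ.equivFin.symm.injective (Subtype.ext e)))
    · refine hz ((show f r = z from dif_neg c) ▸ e ▸ fm t (by omega))
  have k : ∀ e : Fin (Γ.card + 1) ↪ Ω, ∀ r ≤ Γ.card + 1,
      ∃ g ∈ G, ∀ t : Fin (Γ.card + 1), t.1 < r → g (e t) = f t := fun e r => by
    induction r with
    | zero => exact fun _ => ⟨1, one_mem _, fun _ c => absurd c (Nat.not_lt_zero _)⟩
    | succ r ih =>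
      intro hr
      obtain ⟨g, hg, eg⟩ := ih (by omega)
      obtain ⟨l, hl, fx, el⟩ := h ((Finset.range r).image f) (fun w hw => by
        obtain ⟨t, ht, rfl⟩ := Finset.mem_image.1 hw
        exact fm t (by have := Finset.mem_range.1 ht; omega)) (g (e ⟨r, hr⟩)) (fun c => by
        obtain ⟨t, ht, c⟩ := Finset.mem_image.1 c
        have ht := Finset.mem_range.1 ht
        exact ht.ne (Fin.mk.inj (e.injective (g.injective ((eg ⟨t, by omega⟩ ht).trans c))))) (f r) fun c => by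
        obtain ⟨t, ht, c⟩ := Finset.mem_image.1 c
        exact fi t r (Finset.mem_range.1 ht) (by omega) c
      refine ⟨l * g, mul_mem hl hg, fun t ht => ?_⟩
      rcases (Nat.lt_succ_iff_lt_or_eq.1 ht) with c | rfl
      · rw [Perm.mul_apply, eg t c, fx _ (Finset.mem_image_of_mem _ (Finset.mem_range.2 c))]
      · exact el
  refine ⟨fun e e' => ?_⟩
  obtain ⟨g, hg, eg⟩ := k e _ le_rfl
  obtain ⟨g', hg', eg'⟩ := k e' _ le_rfl
  refine ⟨⟨g'⁻¹ * g, mul_mem (inv_mem hg') hg⟩, Function.Embedding.ext fun t => ?_⟩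
  show g'⁻¹ (g (e t)) = e' t
  rw [eg t t.2, Perm.inv_eq_iff_eq, eg' t t.2]

end H93.PW
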