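import Cfsg.Agent.Lib.PW.Defs

set_option autoImplicit false
set_option linter.unusedSectionVars false

namespace H93.PW
open Equiv Equiv.Perm

variable {ι M : Type} [Fintype ι] [DecidableEq ι] [Fintype M] [DecidableEq M]

namespace JD

variable {G : Subgroup (Perm (ι → M))} {i : ι} {a : M} {s : ℕ}

theorem st (hc : Cfg G i a s) {g c : Perm (ι → M)} (hg : g ∈ G) (hcG : c ∈ G)
    {X : Finset (ι → M)} (hX : X ⊆ (hp i a).image g) (hXc : s < X.card)
    (hfix : ∀ x ∈ X, c x = x) {y : ι → M} (hy : y ∈ (hp i a).image g) :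
    c y ∈ (hp i a).image g := by
  have e : (hp i a).image (c * g) = ((hp i a).image g).image c := by
    rw [Finset.image_image]; rfl
  by_cases h : (hp i a).image (c * g) = (hp i a).image g
  · rw [← h, e]; exact Finset.mem_image_of_mem _ hy
  · exfalso
    have h1 := hc.mx _ (mul_mem hcG hg) _ hg h
    have : X ⊆ (hp i a).image (c * g) ∩ (hp i a).image g := fun x hx => by
      rw [Finset.mem_inter, e]
      exact ⟨Finset.mem_image.mpr ⟨x, hX hx, hfix x hx⟩, hX hx⟩
    have := Finset.card_le_card this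
    omega

theorem ty (hG : Hyp G) (hc : Cfg G i a s) {g : Perm (ι → M)} (hg : g ∈ G)
    (hU : ((hp i a).image g ∩ hp i a).card = s) {β γ : ι → M} (hβ : β ∈ (hp i a).image g)
    (hβa : β i ≠ a) (hγ : γ ∈ (hp i a).image g) (hγa : γ i ≠ a) (hγb : γ i ≠ β i) {b : M}
    (h1 : b ≠ a) (h2 : b ≠ β i) (h3 : b ≠ γ i) :
    Function.update β i b ∈ (hp i a).image g := by
  obtain ⟨e, e1, e2, e3, e4⟩ := avoid4 hG.m5 a (β i) (γ i) b
  have hcG := hG.c3_mem i h2.symm e2.symm
  have hγU : γ ∉ (hp i a).image g ∩ hp i a := by simp [hγa]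
  have := st hc hg hcG (X := insert γ ((hp i a).image g ∩ hp i a))
    (Finset.insert_subset hγ Finset.inter_subset_left)
    (by rw [Finset.card_insert_of_notMem hγU]; omega) (fun x hx => by
      rw [co_fix]
      rcases Finset.mem_insert.mp hx with rfl | hx
      · exact c3_ne hγb h3.symm e3.symm
      · have : x i = a := by simpa using (Finset.mem_inter.mp hx).2
        rw [this]
        exact c3_ne hβa.symm h1.symm e1.symm) hβ
  rwa [co_apply, c3_a h2.symm e4.symm] at this

end JD
open JD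

theorem cfg_le_two {G : Subgroup (Perm (ι → M))} (hG : Hyp G) {i : ι} {a : M} {s : ℕ}
    (hc : Cfg G i a s) : (hp i a).card ≤ s + 2 := by
  by_contra hlt
  push Not at hlt
  have hs1 := hc.s1
  obtain ⟨b, hba, -⟩ := avoid4 hG.m5 a a a a
  obtain ⟨e, hea, heb, -⟩ := avoid4 hG.m5 a b b b
  set β : ι → M := fun _ => b with hβ
  have hβi : β i = b := rfl
  have hβΓ : β ∉ hp i a := by simpa using hba
  obtain ⟨T, hTΓ, hT⟩ := Finset.exists_subset_card_eq (s := hp i a) (n := s + 1) (by omega)
  have hex : ∀ δ : ι → M, ∃ g : Perm (ι → M), δ ∈ T →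
      g ∈ G ∧ (hp i a).image g ∩ hp i a = T.erase δ ∧ β ∈ (hp i a).image g := by
    intro δ
    by_cases hδ : δ ∈ T
    · obtain ⟨g, h⟩ := hc.ex (T.erase δ) ((Finset.erase_subset _ _).trans hTΓ)
        (by rw [Finset.card_erase_of_mem hδ, hT]; rfl) β hβΓ
      exact ⟨g, fun _ => h⟩
    · exact ⟨1, fun h => absurd h hδ⟩
  choose g hg using hex
  have cF : ∀ δ, ((hp i a).image (g δ)).card = (hp i a).card := fun δ =>
    Finset.card_image_of_injective _ (g δ).injective
  have cU : ∀ δ ∈ T, ((hp i a).image (g δ) ∩ hp i a).card = s := fun δ hδ => by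
    rw [(hg δ hδ).2.1, Finset.card_erase_of_mem hδ, hT]; rfl
  have cP : ∀ δ ∈ T, ((hp i a).image (g δ) \ hp i a).card + s = (hp i a).card := fun δ hδ => by
    have := Finset.card_sdiff_add_card_inter ((hp i a).image (g δ)) (hp i a)
    rw [cU δ hδ, cF] at this; exact this
  -- two different blocks meet outside the hyperplane only in β
  have meet : ∀ δ ∈ T, ∀ δ' ∈ T, δ ≠ δ' → ∀ γ ∈ (hp i a).image (g δ), γ ∈ (hp i a).image (g δ') →
      γ ∉ hp i a → γ = β := by
    intro δ hδ δ' hδ' hne γ h1 h2 h3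
    by_contra hγ
    have hF : (hp i a).image (g δ) ≠ (hp i a).image (g δ') := by
      intro e
      have : T.erase δ = T.erase δ' := by rw [← (hg δ hδ).2.1, ← (hg δ' hδ').2.1, e]
      have h4 : δ' ∈ T.erase δ := Finset.mem_erase.mpr ⟨hne.symm, hδ'⟩
      rw [this] at h4
      simp at h4
    have h4 := hc.mx _ (hg δ hδ).1 _ (hg δ' hδ').1 hF
    have hsub : insert γ (insert β ((T.erase δ).erase δ')) ⊆
        (hp i a).image (g δ) ∩ (hp i a).image (g δ') := by
      intro x hx
      rcases Finset.mem_insert.mp hx with rfl | hx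
      · exact Finset.mem_inter.mpr ⟨h1, h2⟩
      rcases Finset.mem_insert.mp hx with rfl | hx
      · exact Finset.mem_inter.mpr ⟨(hg δ hδ).2.2, (hg δ' hδ').2.2⟩
      have x1 : x ∈ T.erase δ := Finset.mem_of_mem_erase hx
      have x2 : x ∈ T.erase δ' :=
        Finset.mem_erase.mpr ⟨(Finset.mem_erase.mp hx).1, Finset.mem_of_mem_erase x1⟩
      rw [← (hg δ hδ).2.1] at x1
      rw [← (hg δ' hδ').2.1] at x2
      exact Finset.mem_inter.mpr ⟨(Finset.mem_inter.mp x1).1, (Finset.mem_inter.mp x2).1⟩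
    have n1 : β ∉ (T.erase δ).erase δ' := fun h =>
      hβΓ (hTΓ (Finset.mem_of_mem_erase (Finset.mem_of_mem_erase h)))
    have n2 : γ ∉ insert β ((T.erase δ).erase δ') := fun h => by
      rcases Finset.mem_insert.mp h with h | h
      · exact hγ h
      · exact h3 (hTΓ (Finset.mem_of_mem_erase (Finset.mem_of_mem_erase h)))
    have := Finset.card_le_card hsub
    rw [Finset.card_insert_of_notMem n2, Finset.card_insert_of_notMem n1,
      Finset.card_erase_of_mem (Finset.mem_erase.mpr ⟨hne.symm, hδ'⟩),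
      Finset.card_erase_of_mem hδ, hT] at this
    omega
  set Good := T.filter (fun δ => ∀ γ ∈ (hp i a).image (g δ), γ ∉ hp i a → γ i = b) with hGood
  have hbad : (T.filter (fun δ => ¬ ∀ γ ∈ (hp i a).image (g δ), γ ∉ hp i a → γ i = b)).card ≤ 1 := by
    rw [Finset.card_le_one]
    intro δ hδ δ' hδ'
    by_contra hne
    obtain ⟨hδ, h1⟩ := Finset.mem_filter.mp hδ
    obtain ⟨hδ', h2⟩ := Finset.mem_filter.mp hδ'
    push Not at h1 h2
    obtain ⟨γ, g1, g2, g3⟩ := h1
    obtain ⟨γ', g1', g2', g3'⟩ := h2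
    obtain ⟨b', b1, b2, b3, b4⟩ := avoid4 hG.m5 a b (γ i) (γ' i)
    have t1 := ty hG hc (hg δ hδ).1 (cU δ hδ) (hg δ hδ).2.2 hba g1 (by simpa using g2) g3 b1 b2 b3
    have t2 := ty hG hc (hg δ' hδ').1 (cU δ' hδ') (hg δ' hδ').2.2 hba g1' (by simpa using g2') g3'
      b1 b2 b4
    have := meet δ hδ δ' hδ' hne _ t1 t2 (by simpa using b1)
    have := congrFun this i
    simp only [Function.update_self] at this
    exact b2 this
  have hgood : s ≤ Good.card := by
    have := Finset.card_filter_add_card_filter_not (s := T)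
      (fun δ => ∀ γ ∈ (hp i a).image (g δ), γ ∉ hp i a → γ i = b)
    rw [← hGood] at this
    omega
  obtain ⟨d, hd⟩ : ∃ d, (hp i a).card = s + d := ⟨(hp i a).card - s, by omega⟩
  have hGT : ∀ δ ∈ Good, δ ∈ T := fun δ h => (Finset.mem_filter.mp h).1
  have hGP : ∀ δ ∈ Good, (hp i a).image (g δ) \ hp i a ⊆ hp i b := fun δ h γ hγ => by
    obtain ⟨h1, h2⟩ := Finset.mem_sdiff.mp hγ
    simpa using (Finset.mem_filter.mp h).2 γ h1 h2
  have hds : d ≤ s := by
    obtain ⟨δ, hδ⟩ := Finset.card_pos.mp (show 0 < Good.card by omega)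
    have hδT := hGT δ hδ
    have hcG := hG.c3_mem i hba.symm hea.symm
    have himg : (hp i a).image (co i (c3 a b e)) = hp i b := by
      apply Finset.eq_of_subset_of_card_le
      · intro x hx
        obtain ⟨y, hy, rfl⟩ := Finset.mem_image.mp hx
        have : y i = a := by simpa using hy
        simp [this, c3_a hba.symm heb.symm]
      · rw [Finset.card_image_of_injective _ (Equiv.injective _), card_hp, card_hp]
    have hne : (hp i a).image (g δ) ≠ (hp i a).image (co i (c3 a b e)) := by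
      intro h
      have h0 := cU δ hδT
      rw [h, himg] at h0
      obtain ⟨x, hx⟩ := Finset.card_pos.mp (show 0 < (hp i b ∩ hp i a).card by omega)
      simp only [Finset.mem_inter, mem_hp] at hx
      exact hba (hx.1.symm.trans hx.2)
    have h1 := hc.mx _ (hg δ hδT).1 _ hcG hne
    rw [himg] at h1
    have h2 : (hp i a).image (g δ) \ hp i a ⊆ (hp i a).image (g δ) ∩ hp i b :=
      Finset.subset_inter Finset.sdiff_subset (hGP δ hδ)
    have := Finset.card_le_card h2
    have := cP δ hδT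
    omega
  have hcount : (Good.biUnion (fun δ => ((hp i a).image (g δ) \ hp i a).erase β)).card
      = Good.card * (d - 1) := by
    rw [Finset.card_biUnion, Finset.sum_const_nat]
    · intro δ hδ
      have hδT := hGT δ hδ
      rw [Finset.card_erase_of_mem (Finset.mem_sdiff.mpr ⟨(hg δ hδT).2.2, hβΓ⟩)]
      have := cP δ hδT
      omega
    · intro δ hδ δ' hδ' hne
      rw [Function.onFun, Finset.disjoint_left]
      intro γ h1 h2
      obtain ⟨h3, h1⟩ := Finset.mem_erase.mp h1
      obtain ⟨-, h2⟩ := Finset.mem_erase.mp h2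
      exact h3 (meet δ (hGT δ hδ) δ' (hGT δ' hδ') hne γ (Finset.mem_sdiff.mp h1).1
        (Finset.mem_sdiff.mp h2).1 (Finset.mem_sdiff.mp h1).2)
  have hsub : Good.biUnion (fun δ => ((hp i a).image (g δ) \ hp i a).erase β)
      ⊆ (hp i b).erase β := by
    intro γ hγ
    obtain ⟨δ, hδ, h⟩ := Finset.mem_biUnion.mp hγ
    exact Finset.erase_subset_erase _ (hGP δ hδ) h
  have h5 := Finset.card_le_card hsub
  rw [hcount, Finset.card_erase_of_mem (by simp [hβ]), card_hp, ← card_hp i a, hd] at h5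
  have h6 : Good.card * 2 ≤ Good.card * (d - 1) := Nat.mul_le_mul_left _ (by omega)
  omega

end H93.PW
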