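import Cfsg.Agent.Lib.PW.Defs

set_option autoImplicit false
set_option linter.unusedSectionVars false

namespace H93.PW
open Equiv Equiv.Perm

variable {ι M : Type} [Fintype ι] [DecidableEq ι] [Fintype M] [DecidableEq M]

theorem cfg_ne_two {G : Subgroup (Perm (ι → M))} (hG : Hyp G) (hk : 2 ≤ Fintype.card ι)
    {i : ι} {a : M} {s : ℕ} (hc : Cfg G i a s) : (hp i a).card ≠ s + 2 := by
  intro hN
  obtain ⟨j, hj⟩ := Fintype.exists_ne_of_one_lt_card (by omega : 1 < Fintype.card ι) i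
  obtain ⟨b, hb, -⟩ := avoid4 hG.m5 a a a a
  obtain ⟨w, hwa, hwb, -⟩ := avoid4 hG.m5 a b a a
  obtain ⟨δ, d1, d2⟩ : ∃ δ : ι → M, δ j = a ∧ ∀ l, l ≠ j → δ l = a := ⟨fun _ => a, rfl, fun _ _ => rfl⟩
  obtain ⟨δ', d3, d4⟩ : ∃ δ : ι → M, δ j = b ∧ ∀ l, l ≠ j → δ l = a :=
    ⟨Function.update δ j b, by simp, fun l hl => by simp [hl, d2 l hl]⟩
  obtain ⟨β, b1, b2, b3⟩ : ∃ β : ι → M, β j = w ∧ β i = b ∧ ∀ l, l ≠ j → l ≠ i → β l = a :=
    ⟨Function.update (Function.update δ i b) j w, by simp, by simp [hj.symm],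
      fun l hl hl' => by simp [hl, hl', d2 l hl]⟩
  have dd : δ' ≠ δ := fun e => hb (by rw [← d3, e, d1])
  have m1 : δ ∈ hp i a := mem_hp.2 (d2 i hj.symm)
  have m2 : δ' ∈ (hp i a).erase δ := Finset.mem_erase.2 ⟨dd, mem_hp.2 (d4 i hj.symm)⟩
  have cU : (((hp i a).erase δ).erase δ').card = s := by
    rw [Finset.card_erase_of_mem m2, Finset.card_erase_of_mem m1, hN]; rfl
  have βn : β ∉ hp i a := fun h => hb (b2.symm.trans (mem_hp.1 h))
  obtain ⟨g, hg, hU, hβ⟩ := hc.ex _ ((Finset.erase_subset _ _).trans (Finset.erase_subset _ _)) cU β βn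
  have c2 : ((hp i a).image g \ hp i a).card = 2 := by
    have := Finset.card_sdiff_add_card_inter ((hp i a).image g) (hp i a)
    rw [hU, cU, Finset.card_image_of_injective _ g.injective, hN] at this
    omega
  have mβ : β ∈ (hp i a).image g \ hp i a := Finset.mem_sdiff.2 ⟨hβ, βn⟩
  obtain ⟨γ, hγ⟩ := Finset.card_eq_one.1 (show (((hp i a).image g \ hp i a).erase β).card = 1 by
    rw [Finset.card_erase_of_mem mβ, c2])
  have mγ := hγ.ge (Finset.mem_singleton_self γ)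
  simp only [Finset.mem_erase, Finset.mem_sdiff, mem_hp] at mγ
  obtain ⟨γβ, γF, γa⟩ := mγ
  have key : ∀ c ∈ G, (∀ x, c x i = a ↔ x i = a) → (c δ = δ ∧ c δ' = δ' ∨ c δ = δ' ∧ c δ' = δ) →
      c β = β → c γ = γ := fun c hc' h1 h2 h3 => by
    have im : ∀ x ∈ (hp i a).image g, c x ∈ (hp i a).image (c * g) := fun x hx => by
      obtain ⟨y, hy, rfl⟩ := Finset.mem_image.1 hx
      exact Finset.mem_image.2 ⟨y, hy, rfl⟩
    have e : (hp i a).image (c * g) = (hp i a).image g := by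
      by_contra hn
      have h4 := hc.mx _ (G.mul_mem hc' hg) _ hg hn
      have h5 : insert β (((hp i a).erase δ).erase δ') ⊆
          (hp i a).image (c * g) ∩ (hp i a).image g := by
        intro x hx
        rcases Finset.mem_insert.1 hx with rfl | hx
        · exact Finset.mem_inter.2 ⟨h3 ▸ im _ hβ, hβ⟩
        · refine Finset.mem_inter.2 ⟨?_, (Finset.mem_inter.1 (hU.ge hx)).1⟩
          obtain ⟨y, rfl⟩ := c.surjective x
          refine im y (Finset.mem_inter.1 (hU.ge ?_)).1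
          simp only [Finset.mem_erase, mem_hp] at hx ⊢
          refine ⟨?_, ?_, (h1 y).1 hx.2.2⟩ <;> rintro rfl <;> rcases h2 with h | h
          exacts [hx.1 h.2, hx.2.1 h.2, hx.2.1 h.1, hx.1 h.1]
      have h6 := Finset.card_le_card h5
      rw [Finset.card_insert_of_notMem fun h => βn (Finset.mem_of_mem_erase (Finset.mem_of_mem_erase h)),
        cU] at h6
      omega
    refine Finset.mem_singleton.1 (hγ.le ?_)
    simp only [Finset.mem_erase, Finset.mem_sdiff, mem_hp]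
    exact ⟨fun e' => γβ (c.injective (e'.trans h3.symm)), e ▸ im _ γF, fun e' => γa ((h1 γ).1 e')⟩
  have g1 : γ i = b := by
    by_contra hn
    obtain ⟨e, e1, e2, e3, -⟩ := avoid4 hG.m5 a b (γ i) a
    obtain ⟨f, f1, f2, f3, f4⟩ := avoid4 hG.m5 a b (γ i) e
    have fa : c3 (γ i) e f a = a := c3_ne (Ne.symm γa) e1.symm f1.symm
    have := key _ (hG.c3_mem i e3.symm f3.symm) (fun x => by
      rw [co_self]; exact ⟨fun h => (c3 (γ i) e f).injective (h.trans fa.symm), fun h => h ▸ fa⟩)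
      (Or.inl ⟨co_fix.2 (by rw [d2 i hj.symm, fa]), co_fix.2 (by rw [d4 i hj.symm, fa])⟩)
      (co_fix.2 (by rw [b2]; exact c3_ne (Ne.symm hn) e2.symm f2.symm))
    exact e3 ((c3_a e3.symm f4.symm).symm.trans (co_fix.1 this))
  have g2 : ∀ l, l ≠ j → l ≠ i → γ l = a := fun l l1 l2 => by
    by_contra hn
    obtain ⟨e, e1, e3, -⟩ := avoid4 hG.m5 a (γ l) a a
    obtain ⟨f, f1, f3, f4, -⟩ := avoid4 hG.m5 a (γ l) e a
    have fa : c3 (γ l) e f a = a := c3_ne (Ne.symm hn) e1.symm f1.symm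
    have := key _ (hG.c3_mem l e3.symm f3.symm) (fun x => by rw [co_ne _ _ l2.symm])
      (Or.inl ⟨co_fix.2 (by rw [d2 l l1, fa]), co_fix.2 (by rw [d4 l l1, fa])⟩)
      (co_fix.2 (by rw [b3 l l1 l2, fa]))
    exact e3 ((c3_a e3.symm f4.symm).symm.trans (co_fix.1 this))
  have g3 : γ j ≠ w := fun e => γβ (funext fun l => by
    by_cases l1 : l = j
    · rw [l1, e, b1]
    by_cases l2 : l = i
    · rw [l2, g1, b2]
    rw [g2 l l1 l2, b3 l l1 l2])
  obtain ⟨e, e1, e2, e3, e4⟩ : ∃ e, e ≠ a ∧ e ≠ b ∧ e ≠ w ∧ (γ j = a ∨ γ j = b ∨ γ j = e) := by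
    by_cases h : γ j = a ∨ γ j = b
    · obtain ⟨e, e1, e2, e3, -⟩ := avoid4 hG.m5 a b w a
      exact ⟨e, e1, e2, e3, h.imp id Or.inl⟩
    · exact ⟨γ j, fun e => h (Or.inl e), fun e => h (Or.inr e), g3, Or.inr (Or.inr rfl)⟩
  obtain ⟨f, f1, f2, f3, f4⟩ := avoid4 hG.m5 a b w e
  have s1 : (swap a b * swap e f) a = b := by
    rw [Perm.mul_apply, swap_apply_of_ne_of_ne e1.symm f1.symm, swap_apply_left]
  have s2 : (swap a b * swap e f) b = a := by
    rw [Perm.mul_apply, swap_apply_of_ne_of_ne e2.symm f2.symm, swap_apply_right]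
  have s3 : (swap a b * swap e f) w = w := by
    rw [Perm.mul_apply, swap_apply_of_ne_of_ne e3.symm f3.symm, swap_apply_of_ne_of_ne hwa hwb]
  have s4 : (swap a b * swap e f) e = f := by
    rw [Perm.mul_apply, swap_apply_left, swap_apply_of_ne_of_ne f1 f2]
  have := co_fix.1 (key _ (hG.dd_mem j hb.symm f4.symm) (fun x => by rw [co_ne _ _ hj.symm])
    (Or.inr ⟨funext fun l => ?_, funext fun l => ?_⟩) (co_fix.2 (by rw [b1, s3])))
  · rcases e4 with h | h | h <;> rw [h] at this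
    exacts [hb (s1.symm.trans this), hb (s2.symm.trans this).symm, f4 (s4.symm.trans this)]
  · by_cases l1 : l = j
    · rw [l1, co_self, d1, s1, d3]
    · rw [co_ne _ _ l1, d2 l l1, d4 l l1]
  · by_cases l1 : l = j
    · rw [l1, co_self, d3, s2, d1]
    · rw [co_ne _ _ l1, d2 l l1, d4 l l1]

end H93.PW
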