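import Cfsg.Agent.Lib.PW.JB

/-! The Jordan case: double transitivity and the design of hyperplane images. -/

set_option autoImplicit false
set_option linter.unusedSectionVars false

namespace H93.PW
open Equiv Equiv.Perm

variable {ι M : Type} [Fintype ι] [DecidableEq ι] [Fintype M] [DecidableEq M]

theorem JH.image_hp {g : Perm (ι → M)} {i i' : ι} {a a' : M} (h : ∀ x, x i = a → g x i' = a') :
    (hp i a).image g = hp i' a' :=
  Finset.eq_of_subset_of_card_le (fun y hy => by
    obtain ⟨x, hx, rfl⟩ := Finset.mem_image.1 hy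
    exact mem_hp.2 (h x (mem_hp.1 hx))) (by rw [Finset.card_image_of_injective _ g.injective, card_hp, card_hp])

theorem JH.two_lt (hm : 5 ≤ Fintype.card M) (i : ι) (a : M) : 2 * (hp i a).card < Fintype.card (ι → M) := by
  rw [card_all i, card_hp]
  exact Nat.mul_lt_mul_of_pos_right (by omega) (pow_pos (by omega) _)

theorem JH.image_mul {Ω : Type} [DecidableEq Ω] (X : Finset Ω) (g h : Perm Ω) :
    X.image (g * h) = (X.image h).image g := by
  rw [Finset.image_image]; rfl

theorem hp_conj {G : Subgroup (Perm (ι → M))} (hG : Hyp G) (i : ι) (a : M) (i' : ι) (a' : M) :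
    ∃ g ∈ G, (hp i a).image g = hp i' a' := by
  obtain ⟨p, pa, -⟩ := avoid4 hG.m5 a a a a
  obtain ⟨q, qa, qp, -⟩ := avoid4 hG.m5 a p p p
  have k : ∀ x : ι → M, x i = a → mk (swap i i') (fun l => if l = i' then swap a a' else 1) x i' = a' :=
    fun x hx => by simp [hx]
  rcases hG.adj _ (mk_mem_W (swap i i') fun l => if l = i' then swap a a' else 1) i q p qp with h | h
  · exact ⟨_, h, JH.image_hp k⟩
  · exact ⟨_, h, JH.image_hp fun x hx => k _ (by rw [co_self, hx, swap_apply_of_ne_of_ne qa.symm pa.symm])⟩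

theorem two_trans {G : Subgroup (Perm (ι → M))} (hG : Hyp G) {i : ι} {a : M}
    (hJ : J G (hp i a)) (x y x' y' : ι → M) (h : x ≠ y) (h' : x' ≠ y') :
    ∃ g ∈ G, g x = x' ∧ g y = y' := by
  have all : ∀ j b, J G (hp j b) := fun j b => by
    obtain ⟨g, hg, e⟩ := hp_conj hG i a j b
    exact e ▸ J_image hJ hg
  choose z hz using fun j => avoid4 hG.m5 (x' j) (x' j) (x' j) (x' j)
  have k : ∀ D : Finset ι, J G (Finset.univ.filter fun w => w i = x' i ∧ ∀ j ∈ D, w j = x' j) := fun D => by
    induction D using Finset.induction_on with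
    | empty => simpa [hp] using all i (x' i)
    | insert j D _ ih =>
      convert J_inter ih (all j (x' j)) ⟨z, by simp [(hz i).1], by simp [(hz j).1]⟩ using 1
      ext; simp; tauto
  obtain ⟨b, b1, b2, -⟩ := avoid4 hG.m5 (x i) (x' i) a a
  obtain ⟨g, hg, -, e⟩ := all i b x (by simp [b1.symm]) x' (by simp [b2.symm])
  have m : ∀ w, w ≠ x' → w ∉ Finset.univ.filter fun w : ι → M => w i = x' i ∧ ∀ j ∈ Finset.univ, w j = x' j :=
    fun w hw c => hw (funext fun j => (Finset.mem_filter.1 c).2.2 j (Finset.mem_univ j))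
  obtain ⟨l, hl, f, el⟩ := k Finset.univ (g y) (m _ fun c => h (g.injective (e.trans c.symm))) y' (m _ h'.symm)
  exact ⟨l * g, mul_mem hl hg, by rw [Perm.mul_apply, e, f x' (by simp)], el⟩

theorem exists_cfg {G : Subgroup (Perm (ι → M))} (hG : Hyp G) (hk : 2 ≤ Fintype.card ι)
    {i : ι} {a : M} (hJ : J G (hp i a)) (hom : Hom G i a) : ∃ s, Cfg G i a s := by
  obtain ⟨j, ji⟩ := Fintype.exists_ne_of_one_lt_card hk i
  obtain ⟨b, ba, -⟩ := avoid4 hG.m5 a a a a
  obtain ⟨t, ht, et⟩ := hp_conj hG i a j a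
  have tn : (hp i a).image t ≠ hp i a := fun e => ba (by
    have : Function.update (fun _ => a) j b ∈ hp j a := by rw [← et, e]; simp [ji.symm]
    simpa using this)
  obtain ⟨g, ⟨hg, ne⟩, mx⟩ := Set.exists_max_image {g : Perm (ι → M) | g ∈ G ∧ (hp i a).image g ≠ hp i a}
    (fun g => ((hp i a).image g ∩ hp i a).card) (Set.toFinite _) ⟨t, ht, tn⟩
  have c : ((hp i a).image g).card = (hp i a).card := Finset.card_image_of_injective _ g.injective
  refine ⟨((hp i a).image g ∩ hp i a).card, fun u hu v hv n => ?_, fun U hU cU β hβ => ?_, ?_, ?_⟩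
  · have e : ∀ X : Finset (ι → M), (X.image v).image ⇑v⁻¹ = X := fun X => by
      rw [← JH.image_mul, inv_mul_cancel]; simp
    refine le_trans ?_ (mx (v⁻¹ * u) ⟨mul_mem (inv_mem hv) hu, fun d => n ?_⟩)
    · rw [← Finset.card_image_of_injective _ v⁻¹.injective, Finset.image_inter _ _ v⁻¹.injective, e, JH.image_mul]
    · rw [← mul_inv_cancel_left v u, JH.image_mul, d]
  · obtain ⟨k, hk, e1, e2⟩ := hom _ U Finset.inter_subset_right hU cU.symm
    obtain ⟨_, h1, h2⟩ := Finset.not_subset.1 fun s => ne (Finset.eq_of_subset_of_card_le s c.ge)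
    obtain ⟨γ, hγ, rfl⟩ := Finset.mem_image.1 h1
    obtain ⟨l, hl, f, el⟩ := hJ (k (g γ)) (fun d => h2 (by
      rw [← e1] at d; exact (k.injective.mem_finset_image).1 d)) β hβ
    have fi : ∀ X ⊆ hp i a, X.image l = X := fun X hX => by
      rw [Finset.image_congr (g := id) fun x hx => f x (hX hx), Finset.image_id]
    refine ⟨l * (k * g), mul_mem hl (mul_mem hk hg), ?_, Finset.mem_image.2 ⟨γ, hγ, el⟩⟩
    rw [← fi U hU, ← e2, Finset.image_inter _ _ k.injective, Finset.image_inter _ _ l.injective, e1,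
      fi _ subset_rfl, JH.image_mul, JH.image_mul]
  · exact le_trans (Finset.card_pos.2 ⟨fun _ => a, by simp [et]⟩) (mx t ⟨ht, tn⟩)
  · exact Finset.card_lt_card ⟨Finset.inter_subset_right, fun s =>
      ne (Finset.eq_of_subset_of_card_le (s.trans Finset.inter_subset_left) c.le).symm⟩

theorem erase_J {G : Subgroup (Perm (ι → M))} (hG : Hyp G) {i : ι} {a : M}
    (hJ : J G (hp i a)) {s : ℕ} (hc : Cfg G i a s) (hs : (hp i a).card = s + 1) :
    ∀ γ ∈ hp i a, J G ((hp i a).erase γ) := fun γ hγ => by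
  have lt := JH.two_lt hG.m5 i a
  obtain ⟨β, -, hβ⟩ := Finset.exists_mem_notMem_of_card_lt_card (s := hp i a) (t := Finset.univ)
    (by rw [Finset.card_univ]; omega)
  obtain ⟨g, hg, e, -⟩ := hc.ex _ (Finset.erase_subset γ _) (by rw [Finset.card_erase_of_mem hγ, hs]; rfl) β hβ
  obtain ⟨z, hz⟩ := Finset.exists_mem_notMem_of_card_lt_card (s := (hp i a).image g ∪ hp i a) (t := Finset.univ)
    ((Finset.card_union_le _ _).trans_lt (by
      rw [Finset.card_image_of_injective _ g.injective, Finset.card_univ]; omega))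
  exact e ▸ J_inter (J_image hJ hg) hJ ⟨z, by simpa only [Finset.mem_union, not_or] using hz.2⟩

end H93.PW
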