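import Cfsg.Agent.Lib.PW.Defs

set_option autoImplicit false
set_option linter.unusedSectionVars false

namespace H93.PW
open Equiv Equiv.Perm

variable {ι M : Type} [Fintype ι] [DecidableEq ι] [Fintype M] [DecidableEq M]

namespace TW

theorem dep {β : Type} (F : (ι → M) → β) (i : ι)
    (hF : ∀ x j q, j ≠ i → F (Function.update x j q) = F x) (x x' : ι → M) (h : x i = x' i) :
    F x = F x' := by
  have key : ∀ D : Finset ι, ∀ x x' : ι → M, x i = x' i → (∀ l, l ∉ D → x l = x' l) →
      F x = F x' := by
    intro D
    induction D using Finset.induction_on with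
    | empty =>
      intro x x' _ h2
      have : x = x' := funext fun l => h2 l (by simp)
      rw [this]
    | insert j D _ ih =>
      intro x x' h1 h2
      by_cases hj : j = i
      · refine ih x x' h1 fun l hl => ?_
        by_cases hlj : l = j
        · rw [hlj, hj]; exact h1
        · exact h2 l (by simp [hlj, hl])
      · rw [← hF x j (x' j) hj]
        refine ih _ x' ?_ fun l hl => ?_
        · rw [Function.update_of_ne (Ne.symm hj)]; exact h1
        · by_cases hlj : l = j
          · rw [hlj]; simp
          · rw [Function.update_of_ne hlj]; exact h2 l (by simp [hlj, hl])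
  exact key Finset.univ x x' h (fun l hl => absurd (Finset.mem_univ l) hl)

theorem step {G : Subgroup (Perm (ι → M))} (hG : Hyp G) (h : ∀ i a, Lines G i a)
    {g : Perm (ι → M)} (hg : g ∈ G) {i : ι} (hk : ∀ x j, j ≠ i → g x j = x j)
    (x : ι → M) (j : ι) (q : M) (hj : j ≠ i) : g (Function.update x j q) i = g x i := by
  by_cases hq : x j = q
  · rw [← hq, Function.update_eq_self]
  obtain ⟨r, hr1, hr2, -, -⟩ := avoid4 hG.m5 (x j) q q q
  obtain ⟨e, he1, he2, he3, -⟩ := avoid4 hG.m5 (x j) q r r
  have hc : co j (c3 (x j) q r) ∈ G := hG.c3_mem j hq hr1.symm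
  set c := co j (c3 (x j) q r) with hcdef
  have hcx : c x = Function.update x j q := by
    rw [hcdef, co_apply, c3_a hq hr2.symm]
  have hki : ∀ y, g⁻¹ y j = y j := by
    intro y
    have := hk (g⁻¹ y) j hj
    rw [← this]; simp
  have hm : g⁻¹ * c⁻¹ * g * c ∈ G :=
    G.mul_mem (G.mul_mem (G.mul_mem (G.inv_mem hg) (G.inv_mem hc)) hg) hc
  have hfix : ∀ z : ι → M, z j = e → c z = z := by
    intro z hz
    rw [hcdef, co_fix, hz]; exact c3_ne he1 he2 he3
  have h1 := h j e _ hm (by
    intro z hz
    have e1 : c (g z) = g z := hfix _ (by rw [hk z j hj, hz])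
    have e2 : c⁻¹ (g z) = g z := by rw [Perm.inv_eq_iff_eq, e1]
    simp only [Perm.mul_apply]
    rw [hfix z hz, e2]; simp) x
  have h2 : (g⁻¹ * c⁻¹ * g * c) x j = x j := by
    simp only [Perm.mul_apply]
    rw [hki, hcdef, ← co_inv, co_self, hk _ j hj, co_self]; simp
  have h3 : (g⁻¹ * c⁻¹ * g * c) x = x := by
    funext l
    by_cases hl : l = j
    · rw [hl]; exact h2
    · exact h1 l hl
  simp only [Perm.mul_apply] at h3
  rw [Perm.inv_eq_iff_eq, Perm.inv_eq_iff_eq] at h3
  rw [← hcx, h3, hcdef, co_ne _ _ hj.symm]

end TW

theorem two_of_lines {G : Subgroup (Perm (ι → M))} (hG : Hyp G) (h : ∀ i a, Lines G i a) :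
    Two G := by
  intro i a g hg hfix
  have hk := h i a g hg hfix
  have hd := TW.dep (fun x => g x i) i (fun x j q hj => TW.step hG h hg hk x j q hj)
  let s : M → M := fun v => g (Function.update (fun _ => a) i v) i
  have hs : Function.Injective s := by
    intro v v' hv
    have : g (Function.update (fun _ => a) i v) = g (Function.update (fun _ => a) i v') := by
      funext l
      by_cases hl : l = i
      · rw [hl]; exact hv
      · rw [hk _ l hl, hk _ l hl, Function.update_of_ne hl, Function.update_of_ne hl]
    have := congrFun (g.injective this) i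
    simpa using this
  refine ⟨Equiv.ofBijective s (Finite.injective_iff_bijective.mp hs), ?_⟩
  ext x l
  by_cases hl : l = i
  · rw [hl, co_self, Equiv.ofBijective_apply]
    exact hd _ _ (by simp)
  · rw [co_ne _ _ hl, hk x l hl]

theorem not_two_W (hk : 2 ≤ Fintype.card ι) (hm : 2 ≤ Fintype.card M) :
    ∃ x y z : ι → M, y ≠ x ∧ z ≠ x ∧ y ≠ z ∧ ∀ w ∈ W ι M, w x = x → w y ≠ z := by
  obtain ⟨i, j, hij⟩ := Fintype.exists_pair_of_one_lt_card (α := ι) (by omega)
  obtain ⟨a, b, hab⟩ := Fintype.exists_pair_of_one_lt_card (α := M) (by omega)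
  refine ⟨fun _ => a, Function.update (fun _ => a) i b,
    Function.update (Function.update (fun _ => a) i b) j b, ?_, ?_, ?_, ?_⟩
  · intro h
    have := congrFun h i
    simp at this
    exact hab this.symm
  · intro h
    have := congrFun h j
    simp at this
    exact hab this.symm
  · intro h
    have := congrFun h j
    rw [Function.update_of_ne hij.symm, Function.update_self] at this
    exact hab this
  · rintro w ⟨π, τ, hw⟩ hx hy
    have h0 : ∀ l, τ l a = a := by
      intro l
      have := congrFun hx l
      rwa [hw] at this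
    have key : ∀ l, Function.update (Function.update (fun _ => a) i b) j b l = b →
        π.symm l = i := by
      intro l hl
      by_contra hne
      have := congrFun hy l
      rw [hw, Function.update_of_ne hne, h0, hl] at this
      exact hab this
    have h1 := key i (by rw [Function.update_of_ne hij, Function.update_self])
    have h2 := key j (by rw [Function.update_self])
    exact hij (π.symm.injective (h1.trans h2.symm))

theorem W_top (hk : Fintype.card ι = 1) : W ι M = ⊤ := by
  obtain ⟨i₀, hi⟩ := Fintype.card_eq_one_iff.mp hk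
  rw [eq_top_iff]
  intro g _
  let e : (ι → M) ≃ M :=
    { toFun := fun f => f i₀
      invFun := fun v _ => v
      left_inv := fun f => by funext l; rw [hi l]
      right_inv := fun v => rfl }
  refine ⟨1, fun _ => e.permCongr g, fun f l => ?_⟩
  have h1 : e.symm (f i₀) = f := e.left_inv f
  rw [Equiv.permCongr_apply, hi ((1 : Perm ι).symm l), h1, hi l]
  rfl

end H93.PW
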