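import Cfsg.Agent.Lib.PW.JH
import Cfsg.Agent.Lib.PW.TW

/-! The Jordan case: the stabiliser of a hyperplane is homogeneous on its subsets. -/

set_option autoImplicit false
set_option linter.unusedSectionVars false

namespace H93.PW
open Equiv Equiv.Perm

variable {ι M : Type} [Fintype ι] [DecidableEq ι] [Fintype M] [DecidableEq M]

namespace JI

/-- the point of the hyperplane with the given other coordinates -/
def ext (i : ι) (a : M) (y : {j // j ≠ i} → M) : ι → M := fun l => if h : l = i then a else y ⟨l, h⟩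

theorem ext_self (i : ι) (a : M) (y : {j // j ≠ i} → M) : ext i a y i = a := dif_pos rfl

theorem ext_ne {i : ι} (a : M) (y : {j // j ≠ i} → M) (l : {j // j ≠ i}) : ext i a y l = y l := dif_neg l.2

theorem ext_inj (i : ι) (a : M) : Function.Injective (ext i a) := fun y y' e =>
  funext fun l => by rw [← ext_ne a y, e, ext_ne]

theorem ext_res {i : ι} {a : M} {x : ι → M} (h : x ∈ hp i a) : ext i a (fun l => x l) = x := funext fun l => by
  by_cases c : l = i
  · rw [c, ext_self, mem_hp.1 h]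
  · exact dif_neg c

/-- the permutations induced on the hyperplane -/
def ind (G : Subgroup (Perm (ι → M))) (i : ι) (a : M) : Subgroup (Perm ({j // j ≠ i} → M)) where
  carrier := {ρ | ∃ g ∈ G, ∀ y, g (ext i a y) = ext i a (ρ y)}
  one_mem' := ⟨1, one_mem _, fun _ => rfl⟩
  mul_mem' := fun ⟨g, hg, e⟩ ⟨g', hg', e'⟩ => ⟨g * g', mul_mem hg hg', fun y => by
    rw [Perm.mul_apply, e', e, Perm.mul_apply]⟩
  inv_mem' := fun ⟨g, hg, e⟩ => ⟨g⁻¹, inv_mem hg, fun y => by rw [Perm.inv_eq_iff_eq, e]; simp⟩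

theorem W_le {G : Subgroup (Perm (ι → M))} (hG : Hyp G) (i : ι) (a : M) : W {j // j ≠ i} M ≤ ind G i a := by
  rintro ρ ⟨π, τ, e⟩
  obtain ⟨p, pa, -⟩ := avoid4 hG.m5 a a a a
  obtain ⟨q, qa, qp, -⟩ := avoid4 hG.m5 a p p p
  have k : ∀ y, mk (ofSubtype π) (fun l => if h : l = i then 1 else τ ⟨l, h⟩) (ext i a y) = ext i a (ρ y) :=
    fun y => funext fun l => by
      show (if h : l = i then 1 else τ ⟨l, h⟩) (ext i a y ((ofSubtype π)⁻¹ l)) = _
      rw [← map_inv]
      by_cases c : l = i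
      · rw [dif_pos c, ofSubtype_apply_of_not_mem π⁻¹ (not_not.2 c), c, ext_self, ext_self, Perm.one_apply]
      · rw [dif_neg c, ofSubtype_apply_of_mem π⁻¹ c, ext_ne, ext_ne a _ ⟨l, c⟩, e]; rfl
  rcases hG.adj _ (mk_mem_W (ofSubtype π) fun l => if h : l = i then 1 else τ ⟨l, h⟩) i q p qp with h | h
  · exact ⟨_, h, k⟩
  · exact ⟨_, h, fun y => by
      rw [Perm.mul_apply, co_fix.2 (by rw [ext_self, swap_apply_of_ne_of_ne qa.symm pa.symm]), k]⟩

theorem alt_tr {Y : Type} [Fintype Y] [DecidableEq Y] (h : 3 ≤ Fintype.card Y) {V V' : Finset Y}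
    (c : V.card = V'.card) : ∃ ρ ∈ alternatingGroup Y, V.image ρ = V' := by
  obtain ⟨ρ, e⟩ := Perm.exists_map_finset_eq V V' c
  rw [Finset.map_eq_image] at e
  rcases Int.units_eq_one_or (sign ρ) with s | s
  · exact ⟨ρ, s, e⟩
  obtain ⟨p, q, ne, pq⟩ : ∃ p q, p ≠ q ∧ (p ∈ V ↔ q ∈ V) := by
    by_cases c : 1 < V.card
    · obtain ⟨p, hp, q, hq, ne⟩ := Finset.one_lt_card.1 c
      exact ⟨p, q, ne, iff_of_true hp hq⟩
    · obtain ⟨p, hp, q, hq, ne⟩ := Finset.one_lt_card.1 (show 1 < Vᶜ.card by rw [Finset.card_compl]; omega)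
      exact ⟨p, q, ne, iff_of_false (Finset.mem_compl.1 hp) (Finset.mem_compl.1 hq)⟩
  refine ⟨ρ * swap p q, mem_alternatingGroup.2 (by rw [map_mul, s, sign_swap ne]; rfl), ?_⟩
  rw [JH.image_mul, Finset.eq_of_subset_of_card_le (s := V.image (swap p q)) (t := V) (fun v hv => by
    obtain ⟨u, hu, rfl⟩ := Finset.mem_image.1 hv
    rw [swap_apply_def]
    split_ifs with h1 h2
    exacts [pq.1 (h1 ▸ hu), pq.2 (h2 ▸ hu), hu]) (Finset.card_image_of_injective _ (swap p q).injective).ge]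
  exact e

end JI

theorem homog {G : Subgroup (Perm (ι → M))} (hG : Hyp G) (hk : 2 ≤ Fintype.card ι)
    {i : ι} {a : M} (hJ : J G (hp i a))
    (IH : ∀ G' : Subgroup (Perm ({j // j ≠ i} → M)), 2 ≤ Fintype.card {j // j ≠ i} →
      W {j // j ≠ i} M ≤ G' →
      G' ≤ W {j // j ≠ i} M ∨ alternatingGroup ({j // j ≠ i} → M) ≤ G') : Hom G i a := by
  have m5 := hG.m5
  have c1 : 1 ≤ Fintype.card {j // j ≠ i} := by
    obtain ⟨j, hj⟩ := Fintype.exists_ne_of_one_lt_card hk i
    exact Fintype.card_pos_iff.2 ⟨⟨j, hj⟩⟩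
  have mem : ∀ y, JI.ext i a y ∈ hp i a := fun y => mem_hp.2 (JI.ext_self i a y)
  have alt : alternatingGroup ({j // j ≠ i} → M) ≤ JI.ind G i a := by
    rcases c1.eq_or_lt with c | c
    · exact le_top.trans ((W_top c.symm).ge.trans (JI.W_le hG i a))
    refine (IH _ c (JI.W_le hG i a)).resolve_left fun le => ?_
    obtain ⟨x, y, z, yx, zx, -, n⟩ := not_two_W (M := M) c (by omega)
    obtain ⟨g, hg, e1, e2⟩ := two_trans hG hJ _ _ _ _ ((JI.ext_inj i a).ne yx.symm) ((JI.ext_inj i a).ne zx.symm)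
    obtain ⟨h, hh, s, e⟩ := witt hJ (JH.two_lt m5 i a) hg {JI.ext i a x, JI.ext i a y}
      (by simp [Finset.insert_subset_iff, JI.ext_self]) (by simp [e1, e2, JI.ext_self])
    have k : ∀ u, h (JI.ext i a u) = JI.ext i a fun l => h (JI.ext i a u) l := fun u =>
      (JI.ext_res (s ▸ Finset.mem_image_of_mem _ (mem u))).symm
    refine n _ (le ⟨h, hh, k⟩ : Equiv.ofBijective (fun u (l : {j // j ≠ i}) => h (JI.ext i a u) l)
      (Finite.injective_iff_bijective.1 fun u v c => JI.ext_inj i a (h.injective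
        ((k u).trans ((congrArg _ c).trans (k v).symm)))) ∈ _) (JI.ext_inj i a ?_) (JI.ext_inj i a ?_)
    · exact (k x).symm.trans ((e _ (by simp)).trans e1)
    · exact (k y).symm.trans ((e _ (by simp)).trans e2)
  intro U U' hU hU' c
  have im : ∀ U ⊆ hp i a, (U.image fun x (l : {j // j ≠ i}) => x l).image (JI.ext i a) = U := fun U hU => by
    rw [Finset.image_image]
    exact (Finset.image_congr (g := id) fun x hx => JI.ext_res (hU hx)).trans Finset.image_id
  obtain ⟨ρ, hρ, e⟩ := JI.alt_tr (Y := {j // j ≠ i} → M) (by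
    rw [Fintype.card_fun]; exact le_trans (by omega) (Nat.le_self_pow (by omega) _))
    (V := U.image fun x l => x l) (V' := U'.image fun x l => x l) (by
      rw [← Finset.card_image_of_injective _ (JI.ext_inj i a), im U hU, c,
        ← Finset.card_image_of_injective _ (JI.ext_inj i a), im U' hU'])
  obtain ⟨g, hg, k⟩ := alt hρ
  refine ⟨g, hg, JH.image_hp fun x hx => by rw [← JI.ext_res (mem_hp.2 hx), k, JI.ext_self], ?_⟩
  rw [← im U hU, ← im U' hU', ← e, Finset.image_image (f := JI.ext i a), Finset.image_image (g := JI.ext i a)]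
  exact Finset.image_congr fun y _ => k y

end H93.PW
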