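import Cfsg.Agent.Lib.PW.Defs

set_option autoImplicit false
set_option linter.unusedSectionVars false

namespace H93.PW
open Equiv Equiv.Perm

variable {ι M : Type} [Fintype ι] [DecidableEq ι] [Fintype M] [DecidableEq M]

namespace SG

theorem sign_invol {Ω : Type} [Fintype Ω] [DecidableEq Ω] {σ : Perm Ω} (h : σ ^ 2 = 1) :
    sign σ = (-1) ^ (σ.support.card / 2) := by
  rw [sign_of_pow_two_eq_one h]
  congr 2
  have : Fintype.card (Function.fixedPoints σ) = σ.supportᶜ.card := by
    rw [Fintype.card_subtype]
    congr 1
    ext x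
    simp [Function.IsFixedPt]
  rw [this, Finset.card_compl]
  have := Finset.card_le_univ σ.support
  omega

theorem sign_co_swap (i : ι) {a b : M} (hab : a ≠ b) :
    sign (co i (swap a b)) = (-1) ^ (Fintype.card M ^ (Fintype.card ι - 1)) := by
  rw [sign_invol (by rw [← co_pow, pow_two, swap_mul_self, co_one]), card_support_co,
    card_support_swap hab]
  congr 1
  omega

theorem sign_co (i : ι) (σ : Perm M) :
    sign (co i σ) = sign σ ^ (Fintype.card M ^ (Fintype.card ι - 1)) := by
  induction σ using Perm.swap_induction_on with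
  | one => simp [co_one]
  | swap_mul f x y hxy ih => rw [co_mul, map_mul, map_mul, ih, sign_co_swap i hxy, mul_pow,
      sign_swap hxy]

theorem sign_base (h : ∀ (i : ι) (σ : Perm M), sign (co i σ) = 1) (τ : ι → Perm M) :
    sign (mk 1 τ) = 1 := by
  have : ∀ D : Finset ι, sign (mk 1 (fun l => if l ∈ D then τ l else 1)) = 1 := by
    intro D
    induction D using Finset.induction_on with
    | empty =>
      have : (mk 1 (fun l => if l ∈ (∅ : Finset ι) then τ l else 1) : Perm (ι → M)) = 1 := by
        ext x l; simp [Perm.one_def]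
      rw [this, map_one]
    | insert j D hj ih =>
      have : (mk 1 (fun l => if l ∈ insert j D then τ l else 1) : Perm (ι → M))
          = co j (τ j) * mk 1 (fun l => if l ∈ D then τ l else 1) := by
        ext x l
        by_cases hl : l = j
        · subst hl; simp [Perm.mul_apply, hj, Perm.one_def]
        · simp [Perm.mul_apply, co_ne _ _ hl, hl]
      rw [this, map_mul, h, ih, one_mul]
  simpa using this Finset.univ

theorem mk_top_mul (π π' : Perm ι) :
    (mk (π * π') (fun _ => 1) : Perm (ι → M)) = mk π (fun _ => 1) * mk π' (fun _ => 1) := by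
  ext x l; rfl

theorem mk_one : (mk 1 (fun _ => 1) : Perm (ι → M)) = 1 := by
  ext x l; rfl

theorem card_diag {i j : ι} (hij : i ≠ j) (a : M) :
    (Finset.univ.filter (fun x : ι → M => x i = x j)).card
      = Fintype.card M ^ (Fintype.card ι - 1) := by
  rw [← card_hp i a]
  refine Finset.card_bij' (fun x _ => Function.update x i a) (fun y _ => Function.update y i (y j))
    ?_ ?_ ?_ ?_
  · intro x _; simp
  · intro y _; simp [Function.update_of_ne hij.symm]
  · intro x hx
    have : x i = x j := by simpa using hx
    simp [Function.update_of_ne hij.symm, ← this]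
  · intro y hy
    have : y i = a := by simpa using hy
    simp [← this]

theorem sign_top_swap {i j : ι} (hij : i ≠ j) (a : M) :
    sign (mk (swap i j) (fun _ => 1) : Perm (ι → M)) =
      (-1) ^ ((Fintype.card M - 1) * Fintype.card M ^ (Fintype.card ι - 1) / 2) := by
  rw [sign_invol (by rw [pow_two, ← mk_top_mul, swap_mul_self, mk_one])]
  congr 2
  have : (mk (swap i j) (fun _ => 1) : Perm (ι → M)).support
      = (Finset.univ.filter (fun x : ι → M => x i = x j))ᶜ := by
    ext x
    simp only [mem_support, Finset.mem_compl, Finset.mem_filter, Finset.mem_univ, true_and, ne_eq]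
    apply not_congr
    constructor
    · intro h
      have := congrFun h i
      simpa using this.symm
    · intro h
      funext l
      simp only [mk_apply, symm_swap, Perm.one_apply, swap_apply_def]
      split_ifs with h1 h2
      · rw [h1, h]
      · rw [h2, h]
      · rfl
  rw [this, Finset.card_compl, card_diag hij a, card_all i, Nat.sub_mul, one_mul]

end SG
open SG

theorem hyp_of_alt (hm : 5 ≤ Fintype.card M) (hk : 2 ≤ Fintype.card ι)
    (hex : ¬ (Fintype.card ι = 2 ∧ Fintype.card M % 4 = 2)) {G : Subgroup (Perm (ι → M))}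
    (h : ∀ w ∈ W ι M, sign w = 1 → w ∈ G) : Hyp G := by
  refine ⟨hm, fun i σ hσ => h _ (co_mem_W i σ) (by rw [sign_co, hσ, one_pow]), ?_⟩
  intro w hw i a b hab
  rcases Nat.even_or_odd (Fintype.card M) with hev | hodd
  · left
    refine h w hw ?_
    have hN : Even (Fintype.card M ^ (Fintype.card ι - 1)) :=
      (Nat.even_pow' (by omega)).mpr hev
    have h1 : ∀ (i : ι) (σ : Perm M), sign (co i σ) = 1 := fun i σ => by
      rw [sign_co]
      rcases Int.units_eq_one_or (sign σ) with e | e <;> rw [e]
      · exact one_pow _
      · exact hN.neg_one_pow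
    have h4 : 4 ∣ Fintype.card M ^ (Fintype.card ι - 1) := by
      obtain ⟨r, hr⟩ := hev
      by_cases h2 : Fintype.card ι = 2
      · rw [h2]; simp only [Nat.add_one_sub_one, pow_one]; omega
      · obtain ⟨t, ht⟩ : ∃ t, Fintype.card ι - 1 = t + 2 := ⟨Fintype.card ι - 3, by omega⟩
        rw [ht, pow_add, hr]
        exact Dvd.dvd.mul_left ⟨r * r, by ring⟩ _
    have h2 : ∀ π : Perm ι, sign (mk π (fun _ => 1) : Perm (ι → M)) = 1 := by
      intro π
      induction π using Perm.swap_induction_on with
      | one => rw [mk_one, map_one]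
      | swap_mul f x y hxy ih =>
        rw [mk_top_mul, map_mul, ih, mul_one, sign_top_swap hxy a]
        obtain ⟨t, ht⟩ := h4
        apply Even.neg_one_pow
        rw [ht, show (Fintype.card M - 1) * (4 * t) = 2 * (2 * ((Fintype.card M - 1) * t)) by ring,
          Nat.mul_div_cancel_left _ two_pos]
        exact even_two_mul _
    obtain ⟨π, τ, hw⟩ := hw
    have : w = mk 1 τ * mk π (fun _ => 1) := by
      ext x l; rw [hw]; rfl
    rw [this, map_mul, sign_base h1, h2, one_mul]
  · rcases Int.units_eq_one_or (sign w) with e | e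
    · exact Or.inl (h w hw e)
    · right
      refine h _ (mul_mem hw (co_mem_W _ _)) ?_
      rw [map_mul, e, sign_co_swap i hab, (hodd.pow).neg_one_pow]
      simp

end H93.PW
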