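import Cfsg.Agent.Lib.PW.DA
import Cfsg.Agent.Lib.PW.TW
import Cfsg.Agent.Lib.PW.DS
import Cfsg.Agent.Lib.PW.JI
import Cfsg.Agent.Lib.PW.JD
import Cfsg.Agent.Lib.PW.JE
import Cfsg.Agent.Lib.PW.FN
import Cfsg.Agent.Lib.PW.SG

set_option autoImplicit false
set_option linter.unusedSectionVars false

namespace H93.PW
open Equiv Equiv.Perm

theorem main_aux (n : ℕ) : ∀ (ι M : Type) [Fintype ι] [DecidableEq ι] [Fintype M] [DecidableEq M],
    Fintype.card ι = n → 2 ≤ n → ∀ G : Subgroup (Perm (ι → M)), Hyp G →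
      G ≤ W ι M ∨ alternatingGroup (ι → M) ≤ G := by
  induction n using Nat.strong_induction_on with
  | _ n ih =>
    intro ι M _ _ _ _ hn h2 G hG
    have hk : 2 ≤ Fintype.card ι := hn ▸ h2
    by_cases hJ : ∃ i a, J G (hp i a)
    · obtain ⟨i, a, hJ⟩ := hJ
      right
      have hcard : Fintype.card {j // j ≠ i} = n - 1 := by
        rw [Fintype.card_subtype_compl, Fintype.card_subtype_eq, hn]
      have hom : Hom G i a := homog hG hk hJ (fun G' h2' hW =>
        ih (n - 1) (by omega) _ M hcard (hcard ▸ h2') G' (hyp_of_le hG.m5 hW))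
      obtain ⟨s, hc⟩ := exists_cfg hG hk hJ hom
      have h1 := cfg_le_two hG hc
      have h2 := cfg_ne_two hG hk hc
      have h3 := hc.sN
      have hs : (hp i a).card = s + 1 := by omega
      have hlt : (hp i a).card < Fintype.card (ι → M) := by
        rw [card_hp, card_all i]
        have h5 := hG.m5
        have : 0 < Fintype.card M ^ (Fintype.card ι - 1) := by positivity
        nlinarith
      have hm := multi hlt (J_sub hJ hlt (erase_J hG hJ hc hs))
      rw [card_hp] at hm
      exact alt_of_multi hG hk hm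
    · left
      push Not at hJ
      exact le_W_of_two hG (two_of_lines hG fun i a => (dich hG i a).resolve_left (hJ i a)) hk

variable {ι M : Type} [Fintype ι] [DecidableEq ι] [Fintype M] [DecidableEq M]

theorem main {G : Subgroup (Perm (ι → M))} (hG : Hyp G) (hk : 2 ≤ Fintype.card ι) :
    G ≤ W ι M ∨ alternatingGroup (ι → M) ≤ G :=
  main_aux _ ι M rfl hk G hG

theorem not_alt_le (hm : 5 ≤ Fintype.card M) (hk : 2 ≤ Fintype.card ι) :
    ¬ alternatingGroup (ι → M) ≤ W ι M := by
  intro h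
  obtain ⟨x, y, z, hy, hz, hyz, hw⟩ := not_two_W hk (show 2 ≤ Fintype.card M by omega)
  have h5 : 5 ≤ Fintype.card (ι → M) := by
    obtain ⟨i⟩ : Nonempty ι := Fintype.card_pos_iff.mp (by omega)
    rw [card_all i]
    have : 0 < Fintype.card M ^ (Fintype.card ι - 1) := by positivity
    nlinarith
  obtain ⟨e, hex, hey, hez, -⟩ := avoid4 h5 x y z z
  have hmem : c3 y z e ∈ alternatingGroup (ι → M) :=
    mem_alternatingGroup.mpr (sign_c3 hyz hey.symm)
  exact hw _ (h hmem) (c3_ne hy.symm hz.symm hex.symm) (c3_a hyz hez.symm)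

theorem coatom_alt (hm : 5 ≤ Fintype.card M) (hk : 2 ≤ Fintype.card ι)
    (hex : ¬ (Fintype.card ι = 2 ∧ Fintype.card M % 4 = 2)) :
    IsCoatom ((W ι M).subgroupOf (alternatingGroup (ι → M))) := by
  refine ⟨fun h => not_alt_le hm hk (Subgroup.subgroupOf_eq_top.mp h), fun K hK => ?_⟩
  have hG : Hyp (K.map (alternatingGroup (ι → M)).subtype) := by
    refine hyp_of_alt hm hk hex fun w hw hs => ?_
    exact ⟨⟨w, mem_alternatingGroup.mpr hs⟩, hK.le (Subgroup.mem_subgroupOf.mpr hw), rfl⟩
  rcases main hG hk with h | h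
  · exfalso
    refine hK.ne (le_antisymm hK.le fun g hg => ?_)
    exact Subgroup.mem_subgroupOf.mpr (h ⟨g, hg, rfl⟩)
  · rw [eq_top_iff]
    intro g _
    obtain ⟨g', hg', e⟩ := h g.2
    have : g' = g := Subtype.ext e
    exact this ▸ hg'

theorem coatom_sym (hm : 5 ≤ Fintype.card M) (hk : 2 ≤ Fintype.card ι)
    (hodd : ∃ σ ∈ W ι M, sign σ = -1) : IsCoatom (W ι M) := by
  refine ⟨fun h => not_alt_le hm hk (h ▸ le_top), fun K hK => ?_⟩
  rcases main (hyp_of_le hm hK.le) hk with h | h
  · exact absurd (le_antisymm hK.le h) hK.ne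
  · obtain ⟨σ, hσ, hs⟩ := hodd
    rw [eq_top_iff]
    intro g _
    rcases Int.units_eq_one_or (sign g) with hg | hg
    · exact h (mem_alternatingGroup.mpr hg)
    · have : g * σ ∈ K := h (mem_alternatingGroup.mpr (by simp [hg, hs]))
      simpa using K.mul_mem this (K.inv_mem (hK.le hσ))

end H93.PW
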