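import Cfsg.Agent.Lib.PW.PF
import Cfsg.Agent.Lib.PW.EQ

set_option autoImplicit false
set_option linter.unusedSectionVars false

namespace H93.PW
open Equiv Equiv.Perm

variable {ι M : Type} [Fintype ι] [DecidableEq ι] [Fintype M] [DecidableEq M]

namespace P4

theorem eqv_trans {Θ : Finset M} {I : Finset ι} {x y z : ι → M} (h : eqv Θ I x y)
    (h' : eqv Θ I y z) : eqv Θ I x z :=
  ⟨h.1, h'.2.1, fun j hj => (h.2.2 j hj).trans (h'.2.2 j hj)⟩

theorem eqv_symm {Θ : Finset M} {I : Finset ι} {x y : ι → M} (h : eqv Θ I x y) : eqv Θ I y x :=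
  ⟨h.2.1, h.1, fun j hj => (h.2.2 j hj).symm⟩

/-- `h` acts on the four blocks as `ζ`. -/
def Act (G : Subgroup (Perm (ι → M))) (Θ : Finset M) (I : Finset ι) (i : ι) (x : ι → M)
    (S : Finset M) (h : Perm (ι → M)) (ζ : Perm M) : Prop :=
  h ∈ CJ G Θ I ∧ (∀ v ∈ S, ζ v ∈ S) ∧
    ∀ v ∈ S, eqv Θ I (h (Function.update x i v)) (Function.update x i (ζ v))

variable {G : Subgroup (Perm (ι → M))} {Θ : Finset M} {I : Finset ι} {i : ι} {x : ι → M}
  {S : Finset M}

theorem Act.mul {h h' : Perm (ι → M)} {ζ ζ' : Perm M} (a : Act G Θ I i x S h ζ)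
    (b : Act G Θ I i x S h' ζ') : Act G Θ I i x S (h * h') (ζ * ζ') :=
  ⟨mul_mem a.1 b.1, fun v hv => a.2.1 _ (b.2.1 v hv), fun v hv =>
    eqv_trans (eqv_map a.1 (b.2.2 v hv)) (a.2.2 _ (b.2.1 v hv))⟩

theorem Act.pow {h : Perm (ι → M)} {ζ : Perm M} (a : Act G Θ I i x S h ζ)
    (one : Act G Θ I i x S 1 1) (n : ℕ) : Act G Θ I i x S (h ^ n) (ζ ^ n) := by
  induction n with
  | zero => simpa using one
  | succ n ih => rw [pow_succ, pow_succ]; exact ih.mul a

theorem Act.val {h : Perm (ι → M)} {ζ : Perm M} (a : Act G Θ I i x S h ζ) (hi : i ∉ I)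
    {v : M} (hv : v ∈ S) : h (Function.update x i v) i = ζ v := by
  simpa using (a.2.2 v hv).2.2 i hi

theorem key (hG : Hyp G) (h2 : Two G) (hi : i ∉ I) (hS : S.card = 4) {w : Perm (ι → M)}
    {ζ : Perm M} (hζ : ζ.support = S) (a : Act G Θ I i x S w ζ) (hp : PF i w)
    (hc : w.support.card = 4 * Fintype.card M ^ (Fintype.card ι - 1)) : w = co i ζ := by
  obtain ⟨⟨σ, hσ⟩, -⟩ := hp
  have h1 : ∀ v ∈ S, σ v = ζ v := fun v hv => by
    have := a.val hi hv
    rw [hσ] at this; simpa using this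
  have hsub : (Finset.univ.filter (fun y : ι → M => y i ∈ S)) ⊆ w.support := by
    intro y hy
    have hy' : y i ∈ S := by simpa using hy
    rw [mem_support]
    intro e
    have := hσ y
    rw [e, h1 _ hy'] at this
    rw [← hζ, mem_support] at hy'
    exact hy' this.symm
  have heq := Finset.eq_of_subset_of_card_le hsub (by rw [hc, card_coord, hS])
  have hfix : ∀ y : ι → M, y i ∉ S → w y = y := fun y hy => by
    by_contra e
    have : y ∈ w.support := mem_support.mpr e
    rw [← heq] at this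
    exact hy (by simpa using this)
  have hex : ∃ e : M, e ∉ S := by
    by_contra hh
    push Not at hh
    have := Finset.card_le_card (fun e _ => hh e : Finset.univ ⊆ S)
    have h5 := hG.m5
    rw [Finset.card_univ] at this
    omega
  obtain ⟨e, he⟩ := hex
  obtain ⟨σ', rfl⟩ := h2 i e w a.1.1 (fun y hy => hfix y (hy ▸ he))
  congr 1
  ext v
  by_cases hv : v ∈ S
  · have := a.val hi hv
    simpa using this
  · have := hfix (Function.update x i v) (by simpa using hv)
    rw [co_fix] at this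
    simp only [Function.update_self] at this
    rw [this]
    rw [← hζ, notMem_support] at hv
    exact hv.symm

theorem supp_dd {a b c d : M} (hab : a ≠ b) (hac : a ≠ c) (had : a ≠ d) (hbc : b ≠ c)
    (hbd : b ≠ d) (hcd : c ≠ d) : (swap a b * swap c d).support = {a, b, c, d} := by
  ext v
  simp only [mem_support, Perm.mul_apply, Finset.mem_insert, Finset.mem_singleton, swap_apply_def]
  grind

theorem dd_sq {a b c d : M} (hab : a ≠ b) (hac : a ≠ c) (had : a ≠ d) (hbc : b ≠ c)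
    (hbd : b ≠ d) (hcd : c ≠ d) : (swap a b * swap c d) * (swap a b * swap c d) = 1 := by
  ext v
  simp only [Perm.mul_apply, swap_apply_def, Perm.one_apply]
  grind

theorem dd_mul {a b c d : M} (hab : a ≠ b) (hac : a ≠ c) (had : a ≠ d) (hbc : b ≠ c)
    (hbd : b ≠ d) (hcd : c ≠ d) :
    (swap a b * swap c d) * (swap a c * swap b d) = swap a d * swap b c := by
  ext v
  simp only [Perm.mul_apply, swap_apply_def]
  grind

theorem dd_mul' {a b c d : M} (hab : a ≠ b) (hac : a ≠ c) (had : a ≠ d) (hbc : b ≠ c)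
    (hbd : b ≠ d) (hcd : c ≠ d) :
    (swap a c * swap b d) * (swap a b * swap c d) = swap a d * swap b c := by
  ext v
  simp only [Perm.mul_apply, swap_apply_def]
  grind

theorem dih {H : Type*} [Group H] {A B : H} (hA : A * A = 1) (hB : B * B = 1) (n : ℕ) :
    A * (A * B) ^ n = ((A * B) ^ n)⁻¹ * A ∧ B * (A * B) ^ n = ((A * B) ^ n)⁻¹ * B := by
  have hA' : A⁻¹ = A := inv_eq_of_mul_eq_one_right hA
  have hB' : B⁻¹ = B := inv_eq_of_mul_eq_one_right hB
  have e1 : A * (A * B) * A⁻¹ = (A * B)⁻¹ := by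
    rw [mul_inv_rev, hA', hB', ← mul_assoc, hA, one_mul]
  have e2 : B * (A * B) * B⁻¹ = (A * B)⁻¹ := by
    rw [mul_inv_rev, hA', hB', mul_assoc, mul_assoc, hB, mul_one]
  constructor
  · rw [← inv_pow, ← e1, conj_pow]; group
  · rw [← inv_pow, ← e2, conj_pow]; group

theorem p4_eq_defs : True := trivial

end P4
open P4

theorem pf_of_four {G : Subgroup (Perm (ι → M))} (hG : Hyp G) (h2 : Two G) {Θ : Finset M}
    {I : Finset ι} {i : ι} (hi : i ∉ I) (x : ι → M) {S : Finset M} (hS : S.card = 4)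
    {g : Perm (ι → M)} (hg : g ∈ CJ G Θ I)
    (hfix : ∀ v ∈ S, eqv Θ I (g (Function.update x i v)) (Function.update x i v)) : PF i g := by
  obtain ⟨a, b, c, d, hab, hac, had, hbc, hbd, hcd, hSe⟩ := Finset.card_eq_four.mp hS
  set ζ₁ : Perm M := swap a b * swap c d with hζ₁
  set ζ₂ : Perm M := swap a c * swap b d with hζ₂
  set ζ₃ : Perm M := swap a d * swap b c with hζ₃
  have s1 : ζ₁.support = S := by rw [hSe]; exact supp_dd hab hac had hbc hbd hcd
  have s2 : ζ₂.support = S := by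
    rw [hSe, hζ₂, supp_dd hac hab had hbc.symm hcd hbd]; ext v; simp; tauto
  have q1 : ζ₁ * ζ₁ = 1 := dd_sq hab hac had hbc hbd hcd
  have q2 : ζ₂ * ζ₂ = 1 := dd_sq hac hab had hbc.symm hcd hbd
  have q3 : ζ₃ * ζ₃ = 1 := dd_sq had hab hac hbd.symm hcd.symm hbc
  have m12 : ζ₁ * ζ₂ = ζ₃ := dd_mul hab hac had hbc hbd hcd
  have m21 : ζ₂ * ζ₁ = ζ₃ := dd_mul' hab hac had hbc hbd hcd
  have hrefl : ∀ v, eqv Θ I (Function.update x i v) (Function.update x i v) := by
    intro v
    have h0 := (hfix a (by simp [hSe])).2.1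
    have : ∀ j ∈ I, Function.update x i v j ∈ Θ := fun j hj => by
      have hji : j ≠ i := fun e => hi (e ▸ hj)
      have := h0 j hj
      rw [Function.update_of_ne hji] at this ⊢
      exact this
    exact ⟨this, this, fun _ _ => rfl⟩
  have one : Act G Θ I i x S 1 1 := ⟨one_mem _, fun v hv => hv, fun v _ => hrefl v⟩
  have ag : Act G Θ I i x S g 1 := ⟨hg, fun v hv => hv, hfix⟩
  have ag' : Act G Θ I i x S g⁻¹ 1 := ⟨inv_mem hg, fun v hv => hv, fun v hv => by
    have := eqv_map (inv_mem hg) (hfix v hv)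
    simp only [Perm.coe_inv, Equiv.symm_apply_apply] at this
    exact eqv_symm this⟩
  have az : ∀ ζ : Perm M, ζ.support = S → sign ζ = 1 → Act G Θ I i x S (co i ζ) ζ :=
    fun ζ hs hσ => ⟨co_mem_CJ hG Θ hi hσ, fun v hv => by
      rw [← hs] at hv ⊢; exact apply_mem_support.mpr hv, fun v _ => by
      rw [co_update]; exact hrefl _⟩
  have a1 := az ζ₁ s1 (by simp [hζ₁, hab, hcd])
  have a2 := az ζ₂ s2 (by simp [hζ₂, hac, hbd])
  set A := co i ζ₁ with hA
  set B := g * co i ζ₂ * g⁻¹ with hB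
  have aB : Act G Θ I i x S B ζ₂ := by simpa using (ag.mul a2).mul ag'
  have hAA : A * A = 1 := by rw [hA, ← co_mul, q1, co_one]
  have hBB : B * B = 1 := by
    have : co i ζ₂ * co i ζ₂ = 1 := by rw [← co_mul, q2, co_one]
    rw [hB]
    calc g * co i ζ₂ * g⁻¹ * (g * co i ζ₂ * g⁻¹) = g * (co i ζ₂ * co i ζ₂) * g⁻¹ := by group
      _ = 1 := by rw [this]; group
  have cA : A.support.card = 4 * Fintype.card M ^ (Fintype.card ι - 1) := by
    rw [hA, card_support_co, s1, hS]
  have cB : B.support.card = 4 * Fintype.card M ^ (Fintype.card ι - 1) := by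
    rw [hB, card_support_conj, card_support_co, s2, hS]
  have aAB : Act G Θ I i x S (A * B) ζ₃ := m12 ▸ a1.mul aB
  have p3 : ∀ s : ℕ, ζ₃ ^ (2 * s) = 1 := fun s => by rw [pow_mul, pow_two, q3, one_pow]
  have ha : a ∈ S := by simp [hSe]
  have z3a : ζ₃ a = d := by
    simp [hζ₃, Perm.mul_apply, swap_apply_of_ne_of_ne hab hac]
  obtain ⟨r, hr⟩ : ∃ r, orderOf (A * B) = 2 * r := by
    rcases Nat.even_or_odd' (orderOf (A * B)) with ⟨r, hr | hr⟩
    · exact ⟨r, hr⟩
    · exfalso
      have h1 := (aAB.pow one (orderOf (A * B))).val hi ha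
      rw [pow_orderOf_eq_one, hr, pow_succ, p3, one_mul, z3a] at h1
      simp at h1
      exact had h1
  have hpos : 0 < orderOf (A * B) := orderOf_pos _
  set u := (A * B) ^ r with hu
  have hu1 : u ≠ 1 := pow_ne_one_of_lt_orderOf (by omega) (by omega)
  have huu : u⁻¹ = u := by
    apply inv_eq_of_mul_eq_one_right
    rw [hu, ← pow_add, ← two_mul, ← hr, pow_orderOf_eq_one]
  have hAu : A * u = u * A := by rw [hu, (dih hAA hBB r).1, ← hu, huu]
  have hBu : B * u = u * B := by rw [hu, (dih hAA hBB r).2, ← hu, huu]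
  have aw : Act G Θ I i x S (u * A) (ζ₃ ^ r * ζ₁) := (aAB.pow one r).mul a1
  have pw : PF i (u * A) := pf_of_comm hG h2 aw.1.1 i hab hac had hbc hbd hcd (by
    change u * A * A = A * (u * A)
    rw [← mul_assoc, hAu])
  rcases Nat.even_or_odd' r with ⟨s, hs | hs⟩
  · exfalso
    have e : u * A = (A * B) ^ s * A * ((A * B) ^ s)⁻¹ := by
      have := (dih hAA hBB s).1
      have e2 : A * ((A * B) ^ s)⁻¹ = (A * B) ^ s * A := by
        calc A * ((A * B) ^ s)⁻¹ = (A * B) ^ s * (((A * B) ^ s)⁻¹ * A) * ((A * B) ^ s)⁻¹ := by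
              group
          _ = (A * B) ^ s * A := by rw [← this]; group
      rw [mul_assoc ((A * B) ^ s), e2, hu, hs, two_mul, pow_add, mul_assoc]
    rw [hs, p3, one_mul] at aw
    have := key hG h2 hi hS s1 aw pw (by rw [e, card_support_conj, cA])
    exact hu1 (mul_eq_right.mp this)
  · have e : u * A = ((A * B) ^ s * A) * B * ((A * B) ^ s * A)⁻¹ := by
      have h1 := (dih hAA hBB s).1
      have h2' := (dih hAA hBB s).2
      have hA' : A⁻¹ = A := inv_eq_of_mul_eq_one_right hAA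
      have e2 : A * ((A * B) ^ s)⁻¹ = (A * B) ^ s * A := by
        calc A * ((A * B) ^ s)⁻¹ = (A * B) ^ s * (((A * B) ^ s)⁻¹ * A) * ((A * B) ^ s)⁻¹ := by
              group
          _ = (A * B) ^ s * A := by rw [← h1]; group
      rw [mul_inv_rev, hA', e2, hu, hs]
      calc (A * B) ^ (2 * s + 1) * A = (A * B) ^ s * (A * B) * (A * B) ^ s * A := by
            rw [← pow_succ, ← pow_add]; congr 2; omega
        _ = _ := by group
    have m31 : ζ₃ * ζ₁ = ζ₂ := by rw [← m21, mul_assoc, q1, mul_one]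
    rw [hs, pow_succ, p3, one_mul, m31] at aw
    have hw := key hG h2 hi hS s2 aw pw (by rw [e, card_support_conj, cB])
    have hu3 : u = co i ζ₃ := by
      rw [← m21, co_mul, ← hw, mul_assoc, hAA, mul_one]
    have pB : PF i B := pf_of_comm hG h2 aB.1.1 i had hab hac hbd.symm hcd.symm hbc (by
      change B * co i ζ₃ = co i ζ₃ * B
      rw [← hu3, hBu])
    have hB2 := key hG h2 hi hS s2 aB pB cB
    refine pf_of_comm hG h2 hg.1 i hac hab had hbc.symm hcd hbd ?_
    change g * co i ζ₂ = co i ζ₂ * g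
    calc g * co i ζ₂ = B * g := by rw [hB]; group
      _ = _ := by rw [hB2]

end H93.PW
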