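import Cfsg.Agent.Lib.PW.Defs

set_option autoImplicit false
set_option linter.unusedSectionVars false

namespace H93.PW
open Equiv Equiv.Perm

variable {ι M : Type} [Fintype ι] [DecidableEq ι] [Fintype M] [DecidableEq M]

namespace PF

variable {G : Subgroup (Perm (ι → M))}

theorem ia {Ω : Type} (g : Perm Ω) (x : Ω) : g⁻¹ (g x) = x := by simp

theorem ai {Ω : Type} (g : Perm Ω) (x : Ω) : g (g⁻¹ x) = x := by simp

theorem conj (hG : Hyp G) (h2 : Two G) {g : Perm (ι → M)} (hg : g ∈ G) {i : ι} {v v' : M}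
    (hv : ∀ x, x i = v ↔ g x i = v') {θ : Perm M} (hθ : sign θ = 1) (hθv : θ v = v) :
    ∃ θ' : Perm M, g * co i θ * g⁻¹ = co i θ' := by
  refine h2 i v' _ (G.mul_mem (G.mul_mem hg (hG.alt i θ hθ)) (G.inv_mem hg)) fun x hx => ?_
  have h1 : g⁻¹ x i = v := (hv _).2 (by simpa using hx)
  have h3 : co i θ (g⁻¹ x) = g⁻¹ x := by rw [co_fix, h1, hθv]
  simp only [Perm.mul_apply]
  rw [h3]; simp

theorem hv_inv {g : Perm (ι → M)} {i : ι} {v v' : M} (hv : ∀ x, x i = v ↔ g x i = v') :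
    ∀ x, x i = v' ↔ g⁻¹ x i = v := by
  intro x
  rw [hv (g⁻¹ x)]; simp

theorem one (hG : Hyp G) (h2 : Two G) {g : Perm (ι → M)} (hg : g ∈ G) {i : ι} {v v' : M}
    (hv : ∀ x, x i = v ↔ g x i = v') {x x' : ι → M} (h : x i = x' i) : g x i = g x' i := by
  by_cases hx : x i = v
  · rw [(hv x).1 hx, (hv x').1 (h.symm.trans hx)]
  by_contra hne
  have h1 : g x' i ≠ v' := fun e => hx (h.trans ((hv x').2 e))
  obtain ⟨e, he1, he2, he3, -⟩ := avoid4 hG.m5 v' (g x i) (g x' i) v'
  obtain ⟨f, hf1, hf2, hf3, hf4⟩ := avoid4 hG.m5 v' (g x i) (g x' i) e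
  obtain ⟨θ, hθ⟩ := conj hG h2 (G.inv_mem hg) (hv_inv hv) (θ := c3 (g x' i) e f)
    (sign_c3 he3.symm hf3.symm) (c3_ne h1.symm he1.symm hf1.symm)
  rw [inv_inv] at hθ
  have e1 : co i θ x = x := by
    rw [← hθ]
    simp only [Perm.mul_apply]
    have : co i (c3 (g x' i) e f) (g x) = g x := by
      rw [co_fix]; exact c3_ne hne he2.symm hf2.symm
    rw [this]; simp
  have e2 : co i θ x' = x' := by
    rw [co_fix] at e1 ⊢
    rw [← h]; exact e1
  rw [← hθ] at e2
  simp only [Perm.mul_apply] at e2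
  rw [Perm.inv_eq_iff_eq, co_fix, c3_a he3.symm hf4.symm] at e2
  exact he3 e2

theorem dir (hG : Hyp G) (h2 : Two G) {g : Perm (ι → M)} (hg : g ∈ G) {i : ι} {σ : Perm M}
    (hσ : ∀ x, g x i = σ (x i)) {x x' : ι → M} (h : ∀ j, j ≠ i → x j = x' j) :
    ∀ j, j ≠ i → g x j = g x' j := by
  intro j hj
  by_cases hx : x i = x' i
  · have : x = x' := by
      funext l
      by_cases hl : l = i
      · rw [hl]; exact hx
      · exact h l hl
    rw [this]
  obtain ⟨e, he1, he2, -, -⟩ := avoid4 hG.m5 (x i) (x' i) (x i) (x i)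
  obtain ⟨w, hw1, hw2, hw3, -⟩ := avoid4 hG.m5 (x i) (x' i) e e
  have hv : ∀ z : ι → M, z i = w ↔ g z i = σ w := by
    intro z; rw [hσ]; exact σ.injective.eq_iff.symm
  obtain ⟨θ', hθ⟩ := conj hG h2 hg hv (θ := c3 (x i) (x' i) e) (sign_c3 hx he1.symm)
    (c3_ne hw1 hw2 hw3)
  have e1 : co i (c3 (x i) (x' i) e) x = x' := by
    funext l
    by_cases hl : l = i
    · rw [hl, co_self, c3_a hx he2.symm]
    · rw [co_ne _ _ hl, h l hl]
  have e2 : co i θ' (g x) = g x' := by
    rw [← hθ]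
    simp only [Perm.mul_apply]
    rw [ia, e1]
  rw [← e2, co_ne _ _ hj]

theorem step (hG : Hyp G) (h2 : Two G) {g : Perm (ι → M)} (hg : g ∈ G) {i : ι} {S : Finset M}
    (hS4 : S.card = 4) (hS : ∀ x, g x i ∈ S ↔ x i ∈ S) {x : ι → M} (hx : x i ∈ S)
    (y : ι → M) (hy : y i = g x i) : g⁻¹ y i = x i := by
  have h3 : (S.erase (x i)).card = 3 := by rw [Finset.card_erase_of_mem hx, hS4]
  obtain ⟨p, q, r, hpq, hpr, hqr, hE⟩ := Finset.card_eq_three.1 h3
  have hmem : ∀ u, u ∈ S.erase (x i) ↔ u = p ∨ u = q ∨ u = r := by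
    intro u; rw [hE]; simp
  have hfix : ∀ u, u ∉ S.erase (x i) → c3 p q r u = u := by
    intro u hu
    rw [hmem] at hu
    push Not at hu
    exact c3_ne hu.1 hu.2.1 hu.2.2
  obtain ⟨e, he⟩ : ∃ e, e ∉ S := by
    by_contra hn
    push Not at hn
    have : S = Finset.univ := Finset.eq_univ_iff_forall.2 hn
    have h5 := hG.m5
    rw [this, Finset.card_univ] at hS4
    omega
  obtain ⟨θ', hθ⟩ := h2 i e (g * co i (c3 p q r) * g⁻¹)
    (G.mul_mem (G.mul_mem hg (hG.c3_mem i hpq hpr)) (G.inv_mem hg)) (by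
      intro z hz
      have h1 : g⁻¹ z i ∉ S := by
        intro hm
        have := (hS _).2 hm
        rw [ai, hz] at this
        exact he this
      have h4 : co i (c3 p q r) (g⁻¹ z) = g⁻¹ z := by
        rw [co_fix]; exact hfix _ fun hm => h1 (Finset.mem_of_mem_erase hm)
      simp only [Perm.mul_apply]
      rw [h4]; simp)
  have e1 : co i θ' (g x) = g x := by
    rw [← hθ]
    simp only [Perm.mul_apply]
    have : co i (c3 p q r) x = x := by
      rw [co_fix]; exact hfix _ (Finset.notMem_erase _ _)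
    rw [ia, this]
  have e2 : co i θ' y = y := by
    rw [co_fix] at e1 ⊢
    rw [hy]; exact e1
  rw [← hθ] at e2
  simp only [Perm.mul_apply] at e2
  rw [← Perm.eq_inv_iff_eq, co_fix] at e2
  have hin : g⁻¹ y i ∈ S := by
    rw [← hS, ai, hy, hS]; exact hx
  by_contra hne
  rcases (hmem _).1 (Finset.mem_erase.2 ⟨hne, hin⟩) with h | h | h
  · rw [h, c3_a hpq hqr] at e2; exact hpq e2.symm
  · rw [h, c3_b] at e2; exact hqr e2.symm
  · rw [h, c3_c hpr hqr] at e2; exact hpr e2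

end PF

theorem pf_of_hp {G : Subgroup (Perm (ι → M))} (hG : Hyp G) (h2 : Two G) {g : Perm (ι → M)}
    (hg : g ∈ G) (i : ι) (v v' : M) (hv : ∀ x, x i = v ↔ g x i = v') : PF i g := by
  let s : M → M := fun u => g (Function.update (fun _ => v) i u) i
  have hs : Function.Injective s := by
    intro u u' h
    have := PF.one hG h2 (G.inv_mem hg) (PF.hv_inv hv) h
    simpa using this
  let σ : Perm M := Equiv.ofBijective s (Finite.injective_iff_bijective.mp hs)
  have hσ : ∀ x, g x i = σ (x i) := fun x => PF.one hG h2 hg hv (by simp)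
  have hσ' : ∀ x, g⁻¹ x i = σ⁻¹ (x i) := by
    intro x
    rw [Perm.eq_inv_iff_eq, ← hσ]; simp
  refine ⟨⟨σ, hσ⟩, fun x x' => ⟨PF.dir hG h2 hg hσ, fun h => ?_⟩⟩
  have := PF.dir hG h2 (G.inv_mem hg) hσ' h
  simpa using this

theorem pf_of_comm {G : Subgroup (Perm (ι → M))} (hG : Hyp G) (h2 : Two G) {g : Perm (ι → M)}
    (hg : g ∈ G) (i : ι) {a b c d : M} (hab : a ≠ b) (hac : a ≠ c) (had : a ≠ d) (hbc : b ≠ c)
    (hbd : b ≠ d) (hcd : c ≠ d)
    (hc : g * co i (swap a b * swap c d) = co i (swap a b * swap c d) * g) : PF i g := by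
  have h4 : ({a, b, c, d} : Finset M).card = 4 :=
    Finset.card_eq_four.2 ⟨a, b, c, d, hab, hac, had, hbc, hbd, hcd, rfl⟩
  have hfix : ∀ u, (swap a b * swap c d) u = u ↔ u ∉ ({a, b, c, d} : Finset M) := by
    intro u
    simp only [Finset.mem_insert, Finset.mem_singleton, Perm.mul_apply]
    constructor
    · rintro h (e | e | e | e)
      · rw [e, swap_apply_of_ne_of_ne hac had, swap_apply_left] at h; exact hab h.symm
      · rw [e, swap_apply_of_ne_of_ne hbc hbd, swap_apply_right] at h; exact hab h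
      · rw [e, swap_apply_left, swap_apply_of_ne_of_ne had.symm hbd.symm] at h; exact hcd h.symm
      · rw [e, swap_apply_right, swap_apply_of_ne_of_ne hac.symm hbc.symm] at h; exact hcd h
    · intro h
      push Not at h
      rw [swap_apply_of_ne_of_ne h.2.2.1 h.2.2.2, swap_apply_of_ne_of_ne h.1 h.2.1]
  have hS : ∀ x, g x i ∈ ({a, b, c, d} : Finset M) ↔ x i ∈ ({a, b, c, d} : Finset M) := by
    intro x
    have e := congrArg (fun k : Perm (ι → M) => k x) hc
    simp only [Perm.mul_apply g, Perm.mul_apply (co i (swap a b * swap c d))] at e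
    rw [← not_iff_not, ← hfix, ← hfix, ← co_fix (x := g x), ← co_fix (x := x), ← e]
    exact g.injective.eq_iff
  have hS' : ∀ x, g⁻¹ x i ∈ ({a, b, c, d} : Finset M) ↔ x i ∈ ({a, b, c, d} : Finset M) := by
    intro x
    rw [← hS]; simp
  have ha : (fun _ : ι => a) i ∈ ({a, b, c, d} : Finset M) := by simp
  have hA := PF.step hG h2 hg h4 hS (x := fun _ => a) ha
  have hB := PF.step hG h2 (G.inv_mem hg) h4 hS' (x := g fun _ => a) ((hS _).2 ha)
  refine pf_of_hp hG h2 hg i a (g (fun _ => a) i) fun x => ⟨fun h => ?_, fun h => ?_⟩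
  · have := hB x (by simpa using h)
    simpa using this
  · have := hA (g x) h
    simpa using this

end H93.PW
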